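import Cfsg.Agent.H21.BRDefs
import Cfsg.Agent.H21.BRSplit
import Cfsg.Agent.H21.BRMDefs

set_option autoImplicit false

/-! S0996 / S4700 team project (helper21), piece BRM-MAIN: the degree relation. -/

namespace Cfsg.Agent.H86.BRM

open Cfsg Cfsg.Agent.H21.BR
open scoped ComplexConjugate

theorem nd_main {ι : Type*} [DecidableEq ι] (p e t n : ℕ) (hp : p.Prime) (hp2 : p ≠ 2)
    (het : e * t = p - 1) (he2 : 2 ≤ e) (hn : 1 ≤ n)
    (X : Finset ι) (x₀ : ι) (hx₀ : x₀ ∈ X) (hcard : X.card = e)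
    (f : ι → ℕ) (δ : ι → ℤ) (y : ℕ) (ε : ℤ)
    (hδ : ∀ χ ∈ X, δ χ = 1 ∨ δ χ = -1) (hf₀ : f x₀ = 1) (hδ₀ : δ x₀ = 1)
    (hplus : ∀ χ ∈ X, χ ≠ x₀ → δ χ = 1 → f χ = 1 + n * p)
    (hminus : ∀ χ ∈ X, δ χ = -1 → f χ = p - 1)
    (hexc : (ε = 1 ∧ y = e) ∨ (ε = -1 ∧ t * y = 1 + n * p))
    (hrel : ε * (y : ℤ) = ∑ χ ∈ X, δ χ * (f χ : ℤ)) :
    (ε = 1 ∧ y = e ∧ (X.filter (fun χ => χ ≠ x₀ ∧ δ χ = 1)).card * (n + 1) = e - 1) ∨
      (ε = -1 ∧ ∃ w : ℕ, 1 ≤ w ∧ n + 1 = t * w ∧ y = w * p - e ∧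
        w * ((X.filter (fun χ => χ ≠ x₀ ∧ δ χ = 1)).card * t + 1) = e - 1) := by
  classical
  have hp1 : 1 ≤ p := hp.one_le
  have hx₀N : x₀ ∈ X.filter (fun χ => ¬ (χ ≠ x₀ ∧ δ χ = 1)) := by
    rw [Finset.mem_filter]
    exact ⟨hx₀, fun h => h.1 rfl⟩
  obtain ⟨a, ha⟩ : ∃ a, a = (X.filter (fun χ => χ ≠ x₀ ∧ δ χ = 1)).card := ⟨_, rfl⟩
  obtain ⟨m, hm⟩ : ∃ m, m = ((X.filter (fun χ => ¬ (χ ≠ x₀ ∧ δ χ = 1))).erase x₀).card :=
    ⟨_, rfl⟩
  have hcards : a + m + 1 = e := by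
    have h1 : (X.filter (fun χ => χ ≠ x₀ ∧ δ χ = 1)).card +
        (X.filter (fun χ => ¬ (χ ≠ x₀ ∧ δ χ = 1))).card = X.card :=
      Finset.card_filter_add_card_filter_not _
    have h2 : ((X.filter (fun χ => ¬ (χ ≠ x₀ ∧ δ χ = 1))).erase x₀).card + 1 =
        (X.filter (fun χ => ¬ (χ ≠ x₀ ∧ δ χ = 1))).card := Finset.card_erase_add_one hx₀N
    omega
  have hsum : ∑ χ ∈ X, δ χ * (f χ : ℤ) =
      (a : ℤ) * (1 + n * p) + 1 - (m : ℤ) * ((p : ℤ) - 1) := by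
    rw [← Finset.sum_filter_add_sum_filter_not X (fun χ => χ ≠ x₀ ∧ δ χ = 1)]
    have hP : ∑ χ ∈ X.filter (fun χ => χ ≠ x₀ ∧ δ χ = 1), δ χ * (f χ : ℤ) =
        (a : ℤ) * (1 + n * p) := by
      have hc : ∀ χ ∈ X.filter (fun χ => χ ≠ x₀ ∧ δ χ = 1),
          δ χ * (f χ : ℤ) = (1 + n * p : ℤ) := by
        intro χ hχ
        rw [Finset.mem_filter] at hχ
        rw [hχ.2.2, hplus χ hχ.1 hχ.2.1 hχ.2.2]
        push_cast
        ring
      rw [Finset.sum_congr rfl hc, Finset.sum_const, nsmul_eq_mul, ha]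
    have hN : ∑ χ ∈ X.filter (fun χ => ¬ (χ ≠ x₀ ∧ δ χ = 1)), δ χ * (f χ : ℤ) =
        1 - (m : ℤ) * ((p : ℤ) - 1) := by
      rw [← Finset.add_sum_erase _ _ hx₀N, hδ₀, hf₀]
      have hc : ∀ χ ∈ (X.filter (fun χ => ¬ (χ ≠ x₀ ∧ δ χ = 1))).erase x₀,
          δ χ * (f χ : ℤ) = -((p : ℤ) - 1) := by
        intro χ hχ
        rw [Finset.mem_erase, Finset.mem_filter] at hχ
        obtain ⟨hne, hX, hnot⟩ := hχ
        have hd : δ χ = -1 := by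
          rcases hδ χ hX with h | h
          · exact absurd ⟨hne, h⟩ hnot
          · exact h
        rw [hd, hminus χ hX hd, Nat.cast_sub hp1]
        push_cast
        ring
      rw [Finset.sum_congr rfl hc, Finset.sum_const, nsmul_eq_mul, hm]
      push_cast
      ring
    rw [hP, hN]
    ring
  rw [hsum] at hrel
  have h1 : (e : ℤ) * t = (p : ℤ) - 1 := by
    have h0 : ((e * t : ℕ) : ℤ) = ((p - 1 : ℕ) : ℤ) := by rw [het]
    rw [Nat.cast_sub hp1] at h0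
    push_cast at h0
    exact h0
  have h5 : (e : ℤ) = a + m + 1 := by
    have h0 : ((a + m + 1 : ℕ) : ℤ) = (e : ℤ) := by rw [hcards]
    push_cast at h0
    linarith
  have hP0 : (p : ℤ) ≠ 0 := by
    have : (1 : ℤ) ≤ p := by exact_mod_cast hp1
    linarith
  rcases hexc with ⟨hε, hy⟩ | ⟨hε, hty⟩
  · left
    refine ⟨hε, hy, ?_⟩
    rw [hε, hy, one_mul] at hrel
    have hmain : ((e : ℤ) - 1) * p = (a : ℤ) * (n + 1) * p := by
      linear_combination hrel + ((p : ℤ) - 1) * h5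
    have h := mul_right_cancel₀ hP0 hmain
    have h' : a * (n + 1) + 1 = e := by
      have : ((a * (n + 1) + 1 : ℕ) : ℤ) = (e : ℤ) := by
        push_cast
        linarith
      exact_mod_cast this
    rw [← ha]
    omega
  · right
    refine ⟨hε, ?_⟩
    rw [hε] at hrel
    have h2 : (t : ℤ) * y = 1 + n * p := by exact_mod_cast hty
    -- `t * (y - n * e) = n + 1`
    have h6 : (t : ℤ) * ((y : ℤ) - n * e) = n + 1 := by
      linear_combination h2 - (n : ℤ) * h1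
    have ht0 : 0 < t := by
      rcases Nat.eq_zero_or_pos t with h | h
      · exfalso
        rw [h, mul_zero] at het
        have hp3 : 2 ≤ p := hp.two_le
        omega
      · exact h
    have hwpos : (0 : ℤ) < (y : ℤ) - n * e := by
      have ht' : (0 : ℤ) < t := by exact_mod_cast ht0
      have hn' : (0 : ℤ) < (n : ℤ) + 1 := by positivity
      by_contra hcon
      push Not at hcon
      have := mul_nonpos_of_nonneg_of_nonpos ht'.le hcon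
      linarith
    obtain ⟨w, hw⟩ : ∃ w : ℕ, (w : ℤ) = (y : ℤ) - n * e :=
      ⟨((y : ℤ) - n * e).toNat, Int.toNat_of_nonneg hwpos.le⟩
    have hw1 : 1 ≤ w := by
      have : (0 : ℤ) < w := by rw [hw]; exact hwpos
      exact_mod_cast this
    have hi : (y : ℤ) + e = w * p := by
      linear_combination (y : ℤ) * h1 - (e : ℤ) * h2 - (p : ℤ) * hw
    have hii : ((e : ℤ) - 1) * p = ((a : ℤ) * t + 1) * ((y : ℤ) + e) := by
      linear_combination hrel - (a : ℤ) * h2 + ((p : ℤ) - 1) * h5 - (a : ℤ) * h1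
    have hmain : ((e : ℤ) - 1) * p = (w : ℤ) * ((a : ℤ) * t + 1) * p := by
      rw [hii, hi]
      ring
    have h := mul_right_cancel₀ hP0 hmain
    refine ⟨w, hw1, ?_, ?_, ?_⟩
    · have : ((n + 1 : ℕ) : ℤ) = ((t * w : ℕ) : ℤ) := by
        push_cast
        rw [hw]
        linarith
      exact_mod_cast this
    · have : y + e = w * p := by exact_mod_cast hi
      omega
    · have h' : w * (a * t + 1) + 1 = e := by
        have : ((w * (a * t + 1) + 1 : ℕ) : ℤ) = (e : ℤ) := by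
          push_cast
          linarith
        exact_mod_cast this
      rw [← ha]
      omega

example {ι : Type*} [DecidableEq ι] (p e t n : ℕ) (hp : p.Prime) (hp2 : p ≠ 2)
    (het : e * t = p - 1) (he2 : 2 ≤ e) (hn : 1 ≤ n)
    (X : Finset ι) (x₀ : ι) (hx₀ : x₀ ∈ X) (hcard : X.card = e)
    (f : ι → ℕ) (δ : ι → ℤ) (y : ℕ) (ε : ℤ)
    (hδ : ∀ χ ∈ X, δ χ = 1 ∨ δ χ = -1) (hf₀ : f x₀ = 1) (hδ₀ : δ x₀ = 1)
    (hplus : ∀ χ ∈ X, χ ≠ x₀ → δ χ = 1 → f χ = 1 + n * p)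
    (hminus : ∀ χ ∈ X, δ χ = -1 → f χ = p - 1)
    (hexc : (ε = 1 ∧ y = e) ∨ (ε = -1 ∧ t * y = 1 + n * p))
    (hrel : ε * (y : ℤ) = ∑ χ ∈ X, δ χ * (f χ : ℤ)) :
    (ε = 1 ∧ y = e ∧ (X.filter (fun χ => χ ≠ x₀ ∧ δ χ = 1)).card * (n + 1) = e - 1) ∨
      (ε = -1 ∧ ∃ w : ℕ, 1 ≤ w ∧ n + 1 = t * w ∧ y = w * p - e ∧
        w * ((X.filter (fun χ => χ ≠ x₀ ∧ δ χ = 1)).card * t + 1) = e - 1) :=
  nd_main p e t n hp hp2 het he2 hn X x₀ hx₀ hcard f δ y ε hδ hf₀ hδ₀ hplus hminus hexc hrel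

end Cfsg.Agent.H86.BRM
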