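import Cfsg.Agent.H21.BRDefs
import Cfsg.Agent.H21.BRSplit
import Cfsg.Agent.H21.BRMDefs

set_option autoImplicit false

/-! S0996 / S4700 team project (helper21), piece BRM-RND: `ND p n` holds when `n < (p + 3) / 2`. -/

namespace Cfsg.Agent.H86.BRM

open Cfsg Cfsg.Agent.H21.BR
open scoped ComplexConjugate

theorem nd_of_lt (p n : ℕ) (hp : p.Prime) (hn : 2 * (1 + n * p) < (p + 1) * (p + 2)) :
    ND p n := by
  intro d hd hmod
  by_contra hcon
  push Not at hcon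
  obtain ⟨hd1, hdlt⟩ := hcon
  have hp2 : 2 ≤ p := hp.two_le
  obtain ⟨u, hu⟩ : ∃ u, d = 1 + u * p := by
    refine ⟨d / p, ?_⟩
    have h := Nat.div_add_mod d p
    rw [hmod] at h
    rw [mul_comm] at h
    omega
  have hu1 : 1 ≤ u := by
    by_contra h
    have h0 : u = 0 := by omega
    subst h0
    apply hd1
    rw [hu]
    simp
  have hun : u < n := by
    rw [hu] at hdlt
    have h : u * p < n * p := by omega
    exact lt_of_mul_lt_mul_right h (Nat.zero_le p)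
  have h2n : 2 * n ≤ p + 2 := by
    have h : 2 * n * p < (p + 3) * p := by nlinarith
    have h' := lt_of_mul_lt_mul_right h (Nat.zero_le p)
    omega
  have hdvd : (d : ℤ) ∣ ((u : ℤ) + 1) * ((n : ℤ) - u) := by
    have h1 : (d : ℤ) ∣ (u : ℤ) ^ 2 * (((p : ℤ) - 1) * (1 + n * p)) := by
      have h0 : (d : ℤ) ∣ (((p - 1) * (1 + n * p) : ℕ) : ℤ) := Int.natCast_dvd_natCast.mpr hd
      have e : (((p - 1) * (1 + n * p) : ℕ) : ℤ) = ((p : ℤ) - 1) * (1 + n * p) := by
        rw [Nat.cast_mul, Nat.cast_sub (by omega : 1 ≤ p)]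
        push_cast
        ring
      rw [e] at h0
      exact Dvd.dvd.mul_left h0 _
    have h2 : (u : ℤ) ^ 2 * (((p : ℤ) - 1) * (1 + n * p)) =
        (d : ℤ) * ((n : ℤ) * (u * p) + u - n * u - n) + ((u : ℤ) + 1) * ((n : ℤ) - u) := by
      rw [hu]
      push_cast
      ring
    rw [h2] at h1
    exact (Int.dvd_add_right (Dvd.intro _ rfl)).mp h1
  have hun' : (u : ℤ) < n := by exact_mod_cast hun
  have hu1' : (1 : ℤ) ≤ u := by exact_mod_cast hu1
  have h2n' : (2 : ℤ) * n ≤ p + 2 := by exact_mod_cast h2n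
  have hp2' : (2 : ℤ) ≤ p := by exact_mod_cast hp2
  have hpos : (0 : ℤ) < ((u : ℤ) + 1) * ((n : ℤ) - u) :=
    mul_pos (by linarith) (by linarith)
  have hle := Int.le_of_dvd hpos hdvd
  rw [hu] at hle
  push_cast at hle
  nlinarith [mul_le_mul_of_nonneg_left h2n' (by linarith : (0 : ℤ) ≤ (u : ℤ) + 1),
    mul_nonneg (by linarith : (0 : ℤ) ≤ (u : ℤ) - 1) (by linarith : (0 : ℤ) ≤ (p : ℤ)),
    mul_le_mul hu1' hu1' (by norm_num : (0 : ℤ) ≤ 1) (by linarith : (0 : ℤ) ≤ (u : ℤ))]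

example (p n : ℕ) (hp : p.Prime) (hn : 2 * (1 + n * p) < (p + 1) * (p + 2)) :
    ND p n := nd_of_lt p n hp hn

end Cfsg.Agent.H86.BRM
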