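import Mathlib
import Cfsg.Agent.H2.BrDefs
import Cfsg.Agent.H78.Klein7
import Cfsg.Agent.H78.DefectZero
import Cfsg.Agent.S4479

/-!
# S4501-KLEIN (piece for helper2): the principal `2`-block of a simple group of order `4 g₀`

Glue from helper78's Klein four library and S4479.
-/

set_option autoImplicit false
set_option linter.style.haveILetI false

namespace Cfsg.Agent.H86.Br

open Cfsg

universe u

theorem klein : Cfsg.Agent.H2.Br.StmtKlein.{u} := by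
  intro G _ _ _ hna g₀ hg₀ hcard J t hJ ht hJt hcomm
  classical
  haveI : Fintype G := Fintype.ofFinite G
  haveI : Fact (Nat.Prime 2) := ⟨Nat.prime_two⟩
  have hg₀pos : 0 < g₀ := hg₀.pos
  -- no normal 2-complement
  have hnc : ¬ ∃ N : Subgroup G, N.Normal ∧ Nat.card N = g₀ := by
    rintro ⟨N, hN, hNc⟩
    rcases hN.eq_bot_or_eq_top with h | h
    · subst h
      rw [Subgroup.card_bot] at hNc
      have h4 : Nat.card G = 2 ^ 2 := by rw [hcard, ← hNc]; norm_num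
      obtain ⟨x, y, hxy⟩ := hna
      exact hxy ((IsPGroup.isMulCommutative_of_card_eq_prime_sq (p := 2) (G := G) h4).is_comm.comm
        x y)
    · subst h
      rw [Subgroup.card_top] at hNc
      omega
  have h : Cfsg.Agent.H78.Klein.Hyp G g₀ := ⟨hg₀, hcard, hnc⟩
  obtain ⟨K₀, P, hJP, -, -, -⟩ := Cfsg.Agent.H78.Klein.exists_K_involution h J hJ
  have hP : Nat.card (P : Subgroup G) = 4 := Cfsg.Agent.H78.Klein.sylow_card g₀ hg₀ hcard P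
  have hconj : ∀ x : (P : Subgroup G), x ≠ 1 → IsConj J (x : G) := by
    intro x hx
    have hx2 : orderOf (x : G) = 2 :=
      Cfsg.Agent.H78.Klein.orderOf_eq_two_of_mem_sylow h P x x.2
        (fun hx1 => hx (Subtype.ext hx1))
    obtain ⟨g, hg⟩ := Cfsg.Agent.H78.Klein.conj_of_involutions h J x hJ hx2
    exact isConj_iff.mpr ⟨g, hg⟩
  obtain ⟨M, hM⟩ := Cfsg.Agent.H78.exists_isPModular 2 Nat.prime_two
  obtain ⟨χ₁, χ₂, χ₃, ε₁, ε₂, ε₃, D₀⟩ := Cfsg.Agent.H78.Klein.exists_KData h hM J hJ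
  obtain ⟨ζ₂, ζ₃, ζ₄, ε, D⟩ := D₀.exists_normalized
  have hv₁ : (ζ₂ : G → ℂ) J = 1 := by have := D.hv₁; simpa using this
  have hv₃ : (ζ₄ : G → ℂ) J = -1 := by have := D.hv₃; simpa using this
  have hd := fun (χ : IrrCharacter G) (n : ℤ) (hn : (χ : G → ℂ) J = n) =>
    Cfsg.Agent.H78.Klein.degree_mod_four (P : Subgroup G) hP J hconj χ n hn
  have hm2 : (4 : ℤ) ∣ (charDegree (ζ₂ : G → ℂ) : ℤ) - 1 := by
    obtain ⟨m, hm⟩ := hd ζ₂ 1 D.hv₁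
    exact ⟨m - 1, by linarith⟩
  have hm3 : (4 : ℤ) ∣ (charDegree (ζ₃ : G → ℂ) : ℤ) - ε := by
    obtain ⟨m, hm⟩ := hd ζ₃ ε D.hv₂
    exact ⟨m - ε, by linarith⟩
  have hm4 : (4 : ℤ) ∣ (charDegree (ζ₄ : G → ℂ) : ℤ) + 1 := by
    obtain ⟨m, hm⟩ := hd ζ₄ (-1) D.hv₃
    exact ⟨m + 1, by linarith⟩
  -- the degree equation
  have hdeg : 1 + (charDegree (ζ₂ : G → ℂ) : ℤ) + ε * (charDegree (ζ₃ : G → ℂ) : ℤ)
      - (charDegree (ζ₄ : G → ℂ) : ℤ) = 0 := by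
    have h1 := D.degree_eq
    rw [(Cfsg.Agent.H81.irr_charDegree ζ₂).1, (Cfsg.Agent.H81.irr_charDegree ζ₃).1,
      (Cfsg.Agent.H81.irr_charDegree ζ₄).1] at h1
    have h2 : (((1 + (charDegree (ζ₂ : G → ℂ) : ℤ) + ε * (charDegree (ζ₃ : G → ℂ) : ℤ)
      - (charDegree (ζ₄ : G → ℂ) : ℤ) : ℤ)) : ℂ) = 0 := by
      push_cast
      push_cast at h1
      linear_combination h1
    exact_mod_cast h2
  -- the centralizer of `P`
  obtain ⟨K, hK, hcK⟩ := Cfsg.Agent.H78.Klein.exists_K_pair h P J t hJ ht hcomm hJt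
  have hcPpos : 0 < Nat.card (Subgroup.centralizer ((P : Subgroup G) : Set G)) := Nat.card_pos
  have hy : Nat.card (Subgroup.centralizer ((P : Subgroup G) : Set G)) = 4 ∨
      ∃ y : G, y ≠ 1 ∧ Odd (orderOf y) ∧ y * J = J * y ∧ y * t = t * y := by
    by_cases hK1 : ∀ y ∈ K, y = 1
    · left
      have : K = ⊥ := (Subgroup.eq_bot_iff_forall K).mpr hK1
      rw [hcK, this, Subgroup.card_bot]
    · right
      push Not at hK1
      obtain ⟨y, hyK, hy1⟩ := hK1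
      obtain ⟨ho, h1, h2⟩ := (hK y).mp hyK
      exact ⟨y, hy1, ho, h1, h2⟩
  -- the order formula
  have hS := Cfsg.Agent.S4479.result M hM g₀ hg₀ hcard hnc P J hJP hJ ζ₂ ζ₃ ζ₄ 1 ε (-1) D.hB
    ⟨D.hd1, D.hd2, D.hd3, D.h12, D.h13, D.h23⟩ ⟨D.hε₁, D.hε₂, D.hε₃⟩ ⟨D.hv₁, D.hv₂, D.hv₃⟩
  have hA1 : ((charDegree (ζ₂ : G → ℂ) : ℤ) + 1) ≠ 0 := by
    have := Int.natCast_nonneg (charDegree (ζ₂ : G → ℂ))
    omega
  have hB1 : ((charDegree (ζ₃ : G → ℂ) : ℤ) + ε) ≠ 0 := by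
    obtain ⟨m, hm⟩ := hm3
    rcases D.hε₂ with he | he <;> subst he <;> omega
  have hC1 : ((charDegree (ζ₄ : G → ℂ) : ℤ) - 1) ≠ 0 := by
    obtain ⟨m, hm⟩ := hm4
    omega
  have hformula : (Nat.card G : ℤ) * (((charDegree (ζ₂ : G → ℂ) : ℤ) + 1) *
        ((charDegree (ζ₃ : G → ℂ) : ℤ) + ε) * ((charDegree (ζ₄ : G → ℂ) : ℤ) - 1)) *
        (Nat.card (Subgroup.centralizer ((P : Subgroup G) : Set G)) : ℤ) ^ 2
      = 8 * ((charDegree (ζ₂ : G → ℂ) : ℤ) * (charDegree (ζ₃ : G → ℂ) : ℤ) *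
          (charDegree (ζ₄ : G → ℂ) : ℤ)) *
        (Nat.card (Subgroup.centralizer ({J} : Set G)) : ℤ) ^ 3 := by
    have hA1' : ((charDegree (ζ₂ : G → ℂ) : ℚ) + ((1 : ℤ) : ℚ)) ≠ 0 := by exact_mod_cast hA1
    have hB1' : ((charDegree (ζ₃ : G → ℂ) : ℚ) + (ε : ℚ)) ≠ 0 := by exact_mod_cast hB1
    have hC1' : ((charDegree (ζ₄ : G → ℂ) : ℚ) + ((-1 : ℤ) : ℚ)) ≠ 0 := by
      have : (((charDegree (ζ₄ : G → ℂ) : ℤ) - 1 : ℤ) : ℚ) ≠ 0 := by exact_mod_cast hC1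
      push_cast at this ⊢
      intro h0
      apply this
      linarith
    have hcP' : (Nat.card (Subgroup.centralizer ((P : Subgroup G) : Set G)) : ℚ) ≠ 0 := by
      exact_mod_cast hcPpos.ne'
    have hq : ((Nat.card G : ℤ) * (((charDegree (ζ₂ : G → ℂ) : ℤ) + 1) *
        ((charDegree (ζ₃ : G → ℂ) : ℤ) + ε) * ((charDegree (ζ₄ : G → ℂ) : ℤ) - 1)) *
        (Nat.card (Subgroup.centralizer ((P : Subgroup G) : Set G)) : ℤ) ^ 2 : ℚ)
      = 8 * ((charDegree (ζ₂ : G → ℂ) : ℤ) * (charDegree (ζ₃ : G → ℂ) : ℤ) *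
          (charDegree (ζ₄ : G → ℂ) : ℤ)) *
        (Nat.card (Subgroup.centralizer ({J} : Set G)) : ℤ) ^ 3 := by
      push_cast
      rw [hS]
      push_cast at hA1' hC1' ⊢
      field_simp
      ring
    exact_mod_cast hq
  exact ⟨ζ₂, ζ₃, ζ₄, ε, Nat.card (Subgroup.centralizer ((P : Subgroup G) : Set G)), D.hε₂,
    D.hd1, D.hd2, D.hd3, hv₁, D.hv₂, hv₃, hm2, hm3, hm4, hdeg, hcPpos, hy, hformula⟩

example : Cfsg.Agent.H2.Br.StmtKlein.{u} := klein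

end Cfsg.Agent.H86.Br
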