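import Mathlib

set_option autoImplicit false
set_option maxHeartbeats 800000

/-!
Unipotent elements of `p`-power order: if `(1 + x) ^ p = 1` and `x ^ (n (p - 1) + 1) = 0` in a ring,
then `p ^ n * x = 0`. Consequence for a group element `g` acting on an abelian subgroup `V`:
if `g ^ p` centralizes `V` and the `(n (p - 1) + 1)`-fold commutator with `g` vanishes on `V`,
then `g` centralizes all `p ^ n`-th powers of elements of `V`.
-/

namespace Cfsg.Agent.H86

open Polynomial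

lemma exists_add_one_pow_prime {p : ℕ} (hp : p.Prime) :
    ∃ t : ℤ[X], (X + 1 : ℤ[X]) ^ p = X ^ p + 1 + (p : ℤ[X]) * X * (1 + X * t) := by
  obtain ⟨r, hr⟩ := exists_add_pow_prime_eq hp (X : ℤ[X]) 1
  rw [one_pow, mul_one] at hr
  have h2 : 2 ≤ p := hp.two_le
  have hc : r.coeff 0 = 1 := by
    have h := congrArg (fun q : ℤ[X] => q.coeff 1) hr
    simp only [coeff_X_add_one_pow, coeff_add, coeff_X_pow] at h
    have h3 : ((p : ℤ[X]) * X * r).coeff 1 = (p : ℤ) * r.coeff 0 := by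
      rw [mul_assoc, coeff_natCast_mul, coeff_X_mul]
    rw [h3] at h
    have h4 : (1 : ℤ[X]).coeff 1 = 0 := by
      rw [coeff_one]; simp
    rw [h4] at h
    have h5 : (1 : ℕ) ≠ p := by omega
    simp only [h5, if_false, Nat.choose_one_right, zero_add] at h
    have hp0 : (p : ℤ) ≠ 0 := by exact_mod_cast hp.ne_zero
    have h6 : (p : ℤ) * r.coeff 0 = (p : ℤ) * 1 := by rw [← h]; simp
    exact mul_left_cancel₀ hp0 h6
  have hdvd : (X : ℤ[X]) ∣ r - 1 := by
    rw [X_dvd_iff]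
    simp [hc]
  obtain ⟨t, ht⟩ := hdvd
  refine ⟨t, ?_⟩
  rw [hr]
  have : r = 1 + X * t := by rw [← ht]; ring
  rw [this]

lemma pow_mul_eq_zero_of_unipotent_comm {A : Type*} [CommRing A] {p : ℕ} (hp : p.Prime) (x : A) (n : ℕ)
    (h1 : (1 + x) ^ p = 1) (h2 : x ^ (n * (p - 1) + 1) = 0) : (p : A) ^ n * x = 0 := by
  obtain ⟨t₀, ht₀⟩ := exists_add_one_pow_prime hp
  have h := congrArg (aeval x) ht₀
  simp only [map_add, map_mul, map_pow, aeval_X, map_one, map_natCast] at h
  set t := aeval x t₀ with ht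
  have hxp : x ^ p = -((p : A) * x * (1 + x * t)) := by
    have h3 : (x + 1) ^ p = 1 := by rw [add_comm]; exact h1
    rw [h3] at h
    linear_combination -h
  have hp1 : p = (p - 1) + 1 := by have := hp.two_le; omega
  have h3 : ∀ j : ℕ, x ^ (j * (p - 1) + 1) = (-((p : A) * (1 + x * t))) ^ j * x := by
    intro j
    induction j with
    | zero => simp
    | succ j ih =>
      have e1 : (j + 1) * (p - 1) + 1 = (j * (p - 1) + 1) + (p - 1) := by ring
      rw [e1, pow_add, ih]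
      have e2 : x * x ^ (p - 1) = x ^ p := by
        conv_rhs => rw [hp1]
        rw [pow_succ']
      calc (-((p : A) * (1 + x * t))) ^ j * x * x ^ (p - 1)
          = (-((p : A) * (1 + x * t))) ^ j * (x * x ^ (p - 1)) := by ring
        _ = (-((p : A) * (1 + x * t))) ^ j * x ^ p := by rw [e2]
        _ = (-((p : A) * (1 + x * t))) ^ (j + 1) * x := by rw [hxp]; ring
  have h4 : (-((p : A) * (1 + x * t))) ^ n * x = 0 := by rw [← h3 n]; exact h2
  obtain ⟨w, hw⟩ : ∃ w, (1 + x * t) ^ n = 1 + x * w := by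
    clear h4 h3 h2
    induction n with
    | zero => exact ⟨0, by simp⟩
    | succ n ih =>
      obtain ⟨w, hw⟩ := ih
      exact ⟨w + t + x * w * t, by rw [pow_succ, hw]; ring⟩
  have h5 : (p : A) ^ n * x = (-(x * w)) * ((p : A) ^ n * x) := by
    have e : (-((p : A) * (1 + x * t))) ^ n * x = (-1) ^ n * ((p : A) ^ n * x * (1 + x * t) ^ n) := by
      rw [neg_pow, mul_pow]; ring
    rw [e, hw] at h4
    have h6 : (-1 : A) ^ n * ((-1) ^ n * ((p : A) ^ n * x * (1 + x * w))) = 0 := by rw [h4, mul_zero]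
    rw [← mul_assoc, ← mul_pow] at h6
    simp only [mul_neg, mul_one, neg_neg, one_pow, one_mul] at h6
    linear_combination h6
  have h6 : ∀ k : ℕ, (p : A) ^ n * x = (-(x * w)) ^ k * ((p : A) ^ n * x) := by
    intro k
    induction k with
    | zero => simp
    | succ k ih =>
      calc (p : A) ^ n * x = (-(x * w)) ^ k * ((p : A) ^ n * x) := ih
        _ = (-(x * w)) ^ k * ((-(x * w)) * ((p : A) ^ n * x)) := by rw [← h5]
        _ = (-(x * w)) ^ (k + 1) * ((p : A) ^ n * x) := by ring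
  rw [h6 (n * (p - 1) + 1), neg_pow, mul_pow, h2]
  ring

lemma pow_mul_eq_zero_of_unipotent {A : Type*} [Ring A] {p : ℕ} (hp : p.Prime) (x : A) (n : ℕ)
    (h1 : (1 + x) ^ p = 1) (h2 : x ^ (n * (p - 1) + 1) = 0) : (p : A) ^ n * x = 0 := by
  have key : ((p : ℤ[X]) ^ n * X) ∈
      Ideal.span ({(1 + X) ^ p - 1, X ^ (n * (p - 1) + 1)} : Set ℤ[X]) := by
    rw [← Ideal.Quotient.eq_zero_iff_mem]
    have h := pow_mul_eq_zero_of_unipotent_comm hp
      (Ideal.Quotient.mk (Ideal.span ({(1 + X) ^ p - 1, X ^ (n * (p - 1) + 1)} : Set ℤ[X])) X) n ?_ ?_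
    · rw [map_mul, map_pow, map_natCast]
      exact h
    · have h3 : ((1 + X) ^ p - 1 : ℤ[X]) ∈
          Ideal.span ({(1 + X) ^ p - 1, X ^ (n * (p - 1) + 1)} : Set ℤ[X]) :=
        Ideal.subset_span (by simp)
      rw [← Ideal.Quotient.eq_zero_iff_mem] at h3
      rw [map_sub, map_pow, map_add, map_one] at h3
      exact sub_eq_zero.1 h3
    · have h3 : (X ^ (n * (p - 1) + 1) : ℤ[X]) ∈
          Ideal.span ({(1 + X) ^ p - 1, X ^ (n * (p - 1) + 1)} : Set ℤ[X]) :=
        Ideal.subset_span (by simp)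
      rw [← Ideal.Quotient.eq_zero_iff_mem] at h3
      rw [map_pow] at h3
      exact h3
  obtain ⟨a, b, hab⟩ := Ideal.mem_span_pair.1 key
  have h := congrArg (aeval x) hab
  simp only [map_add, map_mul, map_pow, aeval_X, map_one, map_natCast, map_sub] at h
  rw [h1, h2, sub_self, mul_zero, mul_zero, add_zero] at h
  exact h.symm

/-- If `g` normalizes the abelian subgroup `V`, `g ^ p` centralizes `V` and the
`(n (p - 1) + 1)`-fold commutator with `g` vanishes on `V`, then `g` centralizes the `p ^ n`-th powers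
of the elements of `V`. -/
theorem pow_comm_of_iter_comm {G : Type*} [Group G] {p : ℕ} (hp : p.Prime) (n : ℕ) (g : G)
    (V : Subgroup G) (hVc : ∀ a ∈ V, ∀ b ∈ V, a * b = b * a) (hVn : ∀ v ∈ V, g * v * g⁻¹ ∈ V)
    (hgp : ∀ v ∈ V, g ^ p * v = v * g ^ p)
    (hnil : ∀ v ∈ V, (fun w => g * w * g⁻¹ * w⁻¹)^[n * (p - 1) + 1] v = 1) :
    ∀ v ∈ V, g * v ^ (p ^ n) = v ^ (p ^ n) * g := by
  letI : CommGroup ↥V :=
    { (inferInstance : Group ↥V) with mul_comm := fun a b => Subtype.ext (hVc a a.2 b b.2) }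
  let φ : ↥V →* ↥V :=
    { toFun := fun v => ⟨g * v * g⁻¹, hVn v v.2⟩
      map_one' := by apply Subtype.ext; simp
      map_mul' := fun a b => by apply Subtype.ext; simp }
  let Φ : AddMonoid.End (Additive ↥V) := MonoidHom.toAdditive φ
  have hsub : ∀ m : Additive ↥V, (Φ - 1) m = Φ m - m := fun m => rfl
  have hval : ∀ m : Additive ↥V, ((Φ m).toMul : G) = g * (m.toMul : G) * g⁻¹ := fun m => rfl
  have hval2 : ∀ a b : Additive ↥V, ((a - b).toMul : G) = (a.toMul : G) * (b.toMul : G)⁻¹ := by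
    intro a b
    rw [toMul_sub, div_eq_mul_inv]
    rfl
  have hnsmul : ∀ (k : ℕ) (a : Additive ↥V), ((k • a).toMul : G) = (a.toMul : G) ^ k := by
    intro k a
    rw [toMul_nsmul]
    rfl
  have hΦ : ∀ (k : ℕ) (v : ↥V), (((Φ ^ k) (Additive.ofMul v)).toMul : G) = g ^ k * v * (g ^ k)⁻¹ := by
    intro k
    induction k with
    | zero => intro v; simp
    | succ k ih =>
      intro v
      rw [pow_succ', AddMonoid.End.coe_mul, Function.comp_apply]
      have h1 : ((Φ ((Φ ^ k) (Additive.ofMul v))).toMul : G) =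
          g * (((Φ ^ k) (Additive.ofMul v)).toMul : G) * g⁻¹ := rfl
      rw [h1, ih v, pow_succ']
      group
  have hx : ∀ (k : ℕ) (v : ↥V), ((((Φ - 1) ^ k) (Additive.ofMul v)).toMul : G) =
      (fun w => g * w * g⁻¹ * w⁻¹)^[k] (v : G) := by
    intro k
    induction k with
    | zero => intro v; simp
    | succ k ih =>
      intro v
      rw [pow_succ', AddMonoid.End.coe_mul, Function.comp_apply, Function.iterate_succ_apply']
      rw [hsub, hval2, hval, ih v]
  have h1 : (1 + (Φ - 1)) ^ p = 1 := by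
    have e : 1 + (Φ - 1) = Φ := by abel
    rw [e]
    ext m
    have h := hΦ p (Additive.toMul m)
    have h2 : g ^ p * ((Additive.toMul m : ↥V) : G) * (g ^ p)⁻¹ = ((Additive.toMul m : ↥V) : G) := by
      rw [hgp _ (Additive.toMul m).2]; group
    rw [h2] at h
    exact h
  have h2 : (Φ - 1) ^ (n * (p - 1) + 1) = 0 := by
    ext m
    have h := hx (n * (p - 1) + 1) (Additive.toMul m)
    rw [hnil _ (Additive.toMul m).2] at h
    exact h
  have h3 := pow_mul_eq_zero_of_unipotent hp (Φ - 1) n h1 h2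
  intro v hv
  have h4 := congrArg (fun Ψ : AddMonoid.End (Additive ↥V) => Ψ (Additive.ofMul (⟨v, hv⟩ : ↥V))) h3
  simp only [AddMonoid.End.coe_mul, Function.comp_apply] at h4
  rw [← Nat.cast_pow, AddMonoid.End.natCast_apply] at h4
  have h5 : (((p ^ n) • ((Φ - 1) (Additive.ofMul (⟨v, hv⟩ : ↥V)))).toMul : G) =
      (g * v * g⁻¹ * v⁻¹) ^ (p ^ n) := by
    rw [hnsmul, hsub, hval2, hval]
    rfl
  have h6 : (g * v * g⁻¹ * v⁻¹) ^ (p ^ n) = 1 := by
    rw [← h5, h4]
    rfl
  have hc : Commute (g * v * g⁻¹) v⁻¹ := hVc _ (hVn v hv) _ (V.inv_mem hv)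
  rw [hc.mul_pow, conj_pow, inv_pow] at h6
  calc g * v ^ (p ^ n) = (g * v ^ (p ^ n) * g⁻¹ * (v ^ (p ^ n))⁻¹) * v ^ (p ^ n) * g := by group
    _ = v ^ (p ^ n) * g := by rw [h6, one_mul]

end Cfsg.Agent.H86
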