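import Mathlib
import Cfsg.Prelude.Def_Solvable
import Cfsg.Agent.H86.UnipPow
import Cfsg.Agent.H86.GrpLemmas
import Cfsg.Agent.H86.FusSylow
import Cfsg.Agent.H40.PComp

set_option autoImplicit false
set_option maxHeartbeats 800000

/-!
Let `G` be a finite group with `C_G(O_p(G)) ≤ O_p(G)` whose Sylow `p`-subgroup `P` has class at most
`n (p - 1) + 1` (in the elementwise form: all `(n (p - 1) + 1)`-fold commutators `[v, g, …, g]` vanish).
Then `G = C_G(℧ⁿ(Z(P))) N_G(P)`.
-/

namespace Cfsg.Agent.H86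

open Cfsg

universe v

lemma coe_iterate_comm {G : Type*} [Group G] (M : Subgroup G) (g v : M) (k : ℕ) :
    (((fun w : M => g * w * g⁻¹ * w⁻¹)^[k] v : M) : G) =
      (fun w : G => (g : G) * w * (g : G)⁻¹ * w⁻¹)^[k] (v : G) := by
  induction k with
  | zero => rfl
  | succ k ih =>
    rw [Function.iterate_succ_apply', Function.iterate_succ_apply', ← ih]
    rfl

lemma map_iterate_comm {G H : Type*} [Group G] [Group H] (ι : G →* H) (g v : G) (k : ℕ) :
    ι ((fun w : G => g * w * g⁻¹ * w⁻¹)^[k] v) =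
      (fun w : H => ι g * w * (ι g)⁻¹ * w⁻¹)^[k] (ι v) := by
  induction k with
  | zero => rfl
  | succ k ih =>
    rw [Function.iterate_succ_apply', Function.iterate_succ_apply', ← ih]
    simp

theorem cent_mul_norm {p : ℕ} [Fact p.Prime] (n : ℕ) :
    ∀ (m : ℕ) (G : Type v) [Group G] [Finite G], Nat.card G = m →
      Subgroup.centralizer ((pCore p G : Subgroup G) : Set G) ≤ pCore p G → ∀ (P : Sylow p G),
      (∀ g ∈ (P : Subgroup G), ∀ v ∈ (P : Subgroup G),
        (fun w => g * w * g⁻¹ * w⁻¹)^[n * (p - 1) + 1] v = 1) →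
      ∀ g : G, ∃ c h : G, g = c * h ∧
        (∀ z ∈ (P : Subgroup G), (∀ y ∈ (P : Subgroup G), y * z = z * y) →
          c * z ^ (p ^ n) = z ^ (p ^ n) * c) ∧
        h ∈ Subgroup.normalizer ((P : Subgroup G) : Set G) := by
  intro m
  induction m using Nat.strong_induction_on with
  | _ m ih =>
  intro G _ _ hm hcon P hcl g
  classical
  have hQn : (pCore p G).Normal := pCore_normal p G
  have hQP : pCore p G ≤ P := pCore_le_sylow P
  have hQp : IsPGroup p (pCore p G) := P.isPGroup'.to_le hQP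
  by_cases hPQ : (P : Subgroup G) ≤ pCore p G
  · have hPeq : (P : Subgroup G) = pCore p G := le_antisymm hPQ hQP
    refine ⟨1, g, (one_mul g).symm, fun z _ _ => by simp, ?_⟩
    rw [hPeq, Subgroup.normalizer_eq_top_iff.2 hQn]
    exact Subgroup.mem_top g
  · obtain ⟨g₁, hg₁P, hg₁Q⟩ := SetLike.not_le_iff_exists.1 hPQ
    have hex : ∃ k : ℕ, g₁ ^ (p ^ k) ∈ pCore p G := by
      obtain ⟨k, hk⟩ := P.isPGroup' ⟨g₁, hg₁P⟩
      refine ⟨k, ?_⟩
      have h1 : g₁ ^ (p ^ k) = 1 := by
        have := congrArg Subtype.val hk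
        simpa using this
      rw [h1]
      exact Subgroup.one_mem _
    have hk : g₁ ^ (p ^ Nat.find hex) ∈ pCore p G := Nat.find_spec hex
    have hk0 : Nat.find hex ≠ 0 := by
      intro h0
      rw [h0] at hk
      simp at hk
      exact hg₁Q hk
    obtain ⟨k', hk'⟩ := Nat.exists_eq_succ_of_ne_zero hk0
    have hg₀Q : g₁ ^ (p ^ k') ∉ pCore p G := Nat.find_min hex (by omega : k' < Nat.find hex)
    have hg₀p : (g₁ ^ (p ^ k')) ^ p ∈ pCore p G := by
      rw [← pow_mul, ← pow_succ, ← Nat.succ_eq_add_one, ← hk']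
      exact hk
    have hg₀P : g₁ ^ (p ^ k') ∈ (P : Subgroup G) := Subgroup.pow_mem _ hg₁P _
    generalize g₁ ^ (p ^ k') = g₀ at hg₀Q hg₀p hg₀P
    -- `V = Z(O_p(G))`
    have hVmem : ∀ v, v ∈ pCore p G ⊓ Subgroup.centralizer ((pCore p G : Subgroup G) : Set G) ↔
        v ∈ pCore p G ∧ ∀ q ∈ pCore p G, q * v = v * q := by
      intro v
      rw [Subgroup.mem_inf, Subgroup.mem_centralizer_iff]
      rfl
    have hVc : ∀ a ∈ pCore p G ⊓ Subgroup.centralizer ((pCore p G : Subgroup G) : Set G),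
        ∀ b ∈ pCore p G ⊓ Subgroup.centralizer ((pCore p G : Subgroup G) : Set G), a * b = b * a :=
      fun a ha b hb => ((hVmem b).1 hb).2 a ((hVmem a).1 ha).1
    have hVconj : ∀ (k v : G),
        v ∈ pCore p G ⊓ Subgroup.centralizer ((pCore p G : Subgroup G) : Set G) →
        k * v * k⁻¹ ∈ pCore p G ⊓ Subgroup.centralizer ((pCore p G : Subgroup G) : Set G) := by
      intro k a ha
      obtain ⟨haQ, hac⟩ := (hVmem a).1 ha
      refine (hVmem _).2 ⟨hQn.conj_mem a haQ k, fun q hq => ?_⟩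
      have hq' : k⁻¹ * q * k ∈ pCore p G := by
        have := hQn.conj_mem q hq k⁻¹
        simpa using this
      have h := hac _ hq'
      calc q * (k * a * k⁻¹) = k * ((k⁻¹ * q * k) * a) * k⁻¹ := by group
        _ = k * (a * (k⁻¹ * q * k)) * k⁻¹ := by rw [h]
        _ = k * a * k⁻¹ * q := by group
    -- the centralizer of the powers
    have hC₁mem : ∀ c, c ∈ Subgroup.centralizer {y | ∃ v ∈ pCore p G ⊓
        Subgroup.centralizer ((pCore p G : Subgroup G) : Set G), y = v ^ (p ^ n)} ↔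
        ∀ v ∈ pCore p G ⊓ Subgroup.centralizer ((pCore p G : Subgroup G) : Set G),
          c * v ^ (p ^ n) = v ^ (p ^ n) * c := by
      intro c
      rw [Subgroup.mem_centralizer_iff]
      constructor
      · intro h v hv
        exact (h _ ⟨v, hv, rfl⟩).symm
      · rintro h y ⟨v, hv, rfl⟩
        exact (h v hv).symm
    have hC₁n : (Subgroup.centralizer {y | ∃ v ∈ pCore p G ⊓
        Subgroup.centralizer ((pCore p G : Subgroup G) : Set G), y = v ^ (p ^ n)}).Normal := by
      constructor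
      intro c hc k
      rw [hC₁mem] at hc ⊢
      intro v hv
      have h1 := hc (k⁻¹ * v * k) (by have := hVconj k⁻¹ v hv; simpa using this)
      have h2 : (k⁻¹ * v * k) ^ (p ^ n) = k⁻¹ * v ^ (p ^ n) * k := by
        have := conj_pow (a := k⁻¹) (b := v) (i := p ^ n)
        simpa using this
      rw [h2] at h1
      calc k * c * k⁻¹ * v ^ (p ^ n) = k * (c * (k⁻¹ * v ^ (p ^ n) * k)) * k⁻¹ := by group
        _ = k * (k⁻¹ * v ^ (p ^ n) * k * c) * k⁻¹ := by rw [h1]
        _ = v ^ (p ^ n) * (k * c * k⁻¹) := by group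
    have hg₀C : g₀ ∈ Subgroup.centralizer {y | ∃ v ∈ pCore p G ⊓
        Subgroup.centralizer ((pCore p G : Subgroup G) : Set G), y = v ^ (p ^ n)} := by
      rw [hC₁mem]
      exact pow_comm_of_iter_comm (Fact.out : p.Prime) n g₀ _ hVc (fun v hv => hVconj g₀ v hv)
        (fun v hv => (((hVmem v).1 hv).2 _ hg₀p))
        (fun v hv => hcl g₀ hg₀P v (hQP ((hVmem v).1 hv).1))
    generalize Subgroup.centralizer {y | ∃ v ∈ pCore p G ⊓
        Subgroup.centralizer ((pCore p G : Subgroup G) : Set G), y = v ^ (p ^ n)} = C₁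
      at hC₁mem hC₁n hg₀C
    -- the Frattini argument
    have hFr := Sylow.normalizer_sup_eq_top (Cfsg.Agent.H40.sylowInfNormal P C₁)
    rw [Cfsg.Agent.H40.coe_sylowInfNormal, Subgroup.subgroupOf_map_subtype] at hFr
    have hMtop : Subgroup.normalizer ((((P : Subgroup G) ⊓ C₁ : Subgroup G)) : Set G) ≠ ⊤ := by
      intro h
      have hnorm' : ((P : Subgroup G) ⊓ C₁).Normal := Subgroup.normalizer_eq_top_iff.1 h
      have hp' : IsPGroup p ↥((P : Subgroup G) ⊓ C₁) := P.isPGroup'.to_le inf_le_left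
      exact hg₀Q (le_pCore hnorm' hp' (Subgroup.mem_inf.2 ⟨hg₀P, hg₀C⟩))
    have hPM : (P : Subgroup G) ≤ Subgroup.normalizer ((((P : Subgroup G) ⊓ C₁ : Subgroup G)) : Set G) := by
      intro y hy
      refine mem_normalizer_of_forall_conj_mem (fun w hw => ?_) (fun w hw => ?_)
      · obtain ⟨hw1, hw2⟩ := Subgroup.mem_inf.1 hw
        exact Subgroup.mem_inf.2 ⟨Subgroup.mul_mem _ (Subgroup.mul_mem _ hy hw1) (Subgroup.inv_mem _ hy),
          hC₁n.conj_mem w hw2 y⟩
      · obtain ⟨hw1, hw2⟩ := Subgroup.mem_inf.1 hw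
        refine Subgroup.mem_inf.2 ⟨Subgroup.mul_mem _ (Subgroup.mul_mem _ (Subgroup.inv_mem _ hy) hw1) hy, ?_⟩
        have := hC₁n.conj_mem w hw2 y⁻¹
        simpa using this
    generalize Subgroup.normalizer ((((P : Subgroup G) ⊓ C₁ : Subgroup G)) : Set G) = M at hFr hMtop hPM
    have hcard : Nat.card M < m := by
      rw [← hm]
      exact lt_of_le_of_ne (Subgroup.card_le_card_group M)
        (fun h => hMtop (Subgroup.eq_top_of_card_eq M h))
    have hP' : ((P.subtype hPM : Sylow p M) : Subgroup M) = (P : Subgroup G).subgroupOf M :=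
      Sylow.coe_subtype P hPM
    have hconM : Subgroup.centralizer ((pCore p ↥M : Subgroup ↥M) : Set ↥M) ≤ pCore p ↥M := by
      have hn' : ((pCore p G).subgroupOf M).Normal := hQn.subgroupOf M
      have hp' : IsPGroup p ((pCore p G).subgroupOf M) := hQp.comap_subtype
      have hle : (pCore p G).subgroupOf M ≤ pCore p ↥M := le_pCore hn' hp'
      intro y hy
      apply hle
      rw [Subgroup.mem_subgroupOf]
      apply hcon
      rw [Subgroup.mem_centralizer_iff]
      intro q hq
      have hqM : q ∈ M := hPM (hQP hq)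
      have h1 := Subgroup.mem_centralizer_iff.1 hy ⟨q, hqM⟩ (hle (Subgroup.mem_subgroupOf.2 hq))
      exact congrArg Subtype.val h1
    have hclM : ∀ a ∈ ((P.subtype hPM : Sylow p M) : Subgroup M),
        ∀ v ∈ ((P.subtype hPM : Sylow p M) : Subgroup M),
        (fun w => a * w * a⁻¹ * w⁻¹)^[n * (p - 1) + 1] v = 1 := by
      intro a ha v hv
      rw [hP'] at ha hv
      apply Subtype.ext
      rw [coe_iterate_comm]
      exact hcl a (Subgroup.mem_subgroupOf.1 ha) v (Subgroup.mem_subgroupOf.1 hv)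
    have key := ih _ hcard ↥M rfl hconM (P.subtype hPM) hclM
    -- decompose `g`
    have hg : g ∈ ((C₁ ⊔ M : Subgroup G) : Set G) := by
      rw [sup_comm, hFr]
      exact Subgroup.mem_top g
    rw [Subgroup.normal_mul C₁ M] at hg
    obtain ⟨c₁, hc₁, m', hm', rfl⟩ := Set.mem_mul.1 hg
    obtain ⟨c, h, hch, hc, hh⟩ := key ⟨m', hm'⟩
    have hch' : m' = (c : G) * (h : G) := congrArg Subtype.val hch
    refine ⟨c₁ * c, h, by rw [hch']; group, fun z hz hzc => ?_, ?_⟩
    · have hzQ : z ∈ pCore p G := by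
        apply hcon
        rw [Subgroup.mem_centralizer_iff]
        intro q hq
        exact hzc q (hQP hq)
      have hzV : z ∈ pCore p G ⊓ Subgroup.centralizer ((pCore p G : Subgroup G) : Set G) :=
        (hVmem z).2 ⟨hzQ, fun q hq => hzc q (hQP hq)⟩
      have h1 := (hC₁mem c₁).1 hc₁ z hzV
      have h2 := hc ⟨z, hPM hz⟩ (by rw [hP']; exact Subgroup.mem_subgroupOf.2 hz)
        (fun y hy => by
          rw [hP'] at hy
          exact Subtype.ext (hzc y (Subgroup.mem_subgroupOf.1 hy)))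
      have h3 : (c : G) * z ^ (p ^ n) = z ^ (p ^ n) * (c : G) := congrArg Subtype.val h2
      calc c₁ * c * z ^ (p ^ n) = c₁ * ((c : G) * z ^ (p ^ n)) := by group
        _ = c₁ * z ^ (p ^ n) * c := by rw [h3]; group
        _ = z ^ (p ^ n) * (c₁ * c) := by rw [h1]; group
    · refine mem_normalizer_of_forall_conj_mem (fun y hy => ?_) (fun y hy => ?_)
      · have h1 := (Subgroup.mem_normalizer_iff.1 hh ⟨y, hPM hy⟩).1
          (by rw [hP']; exact Subgroup.mem_subgroupOf.2 hy)
        rw [hP'] at h1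
        exact Subgroup.mem_subgroupOf.1 h1
      · have h1 := (Subgroup.mem_normalizer_iff.1 (Subgroup.inv_mem _ hh) ⟨y, hPM hy⟩).1
          (by rw [hP']; exact Subgroup.mem_subgroupOf.2 hy)
        rw [hP'] at h1
        have h2 := Subgroup.mem_subgroupOf.1 h1
        simpa using h2

end Cfsg.Agent.H86
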