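import Mathlib
import Cfsg.Prelude.Def_FusionSystem
import Cfsg.Prelude.Def_PLocal
import Cfsg.Agent.H86.ClassPow
import Cfsg.Agent.H86.ModelData
import Cfsg.Agent.H86.PredSys

set_option autoImplicit false
set_option maxHeartbeats 800000

/-!
If `S` has class at most `n (p - 1) + 1`, then `℧ⁿ(Z(S))` is normal in every saturated fusion system
over `S`.
-/

namespace Cfsg.Agent.H86

open Cfsg Cfsg.FusionSystem
open scoped commutatorElement

universe u

variable {Ω : Type u} [Group Ω] {S : Subgroup Ω}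

lemma Mor.map_pow {F : FusionSystem S} {P : Subgroup Ω} {f : Ω → Ω} (h : Mor F P f) {x : Ω}
    (hx : x ∈ P) (k : ℕ) : f (x ^ k) = f x ^ k := by
  induction k with
  | zero => simpa using h.map_one
  | succ k ih => rw [pow_succ, h.map_mul (P.pow_mem hx k) hx, ih, pow_succ]

/-- A map of the system sending a generating set into a subgroup sends the generated subgroup into it. -/
lemma Mor.map_mem_of_closure {F : FusionSystem S} {P : Subgroup Ω} {f : Ω → Ω} (hf : Mor F P f)
    {s : Set Ω} {t : Subgroup Ω} (hs : s ⊆ (P : Set Ω)) (h : ∀ y ∈ s, f y ∈ t) :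
    ∀ x ∈ Subgroup.closure s, f x ∈ t := by
  have hle : Subgroup.closure s ≤ P := (Subgroup.closure_le P).2 hs
  intro x hx
  refine Subgroup.closure_induction (p := fun x _ => f x ∈ t) (fun y hy => h y hy) ?_ ?_ ?_ hx
  · rw [hf.map_one]
    exact t.one_mem
  · intro a b ha hb ha' hb'
    rw [hf.map_mul (hle ha) (hle hb)]
    exact t.mul_mem ha' hb'
  · intro a ha ha'
    rw [hf.map_inv (hle ha)]
    exact t.inv_mem ha'

theorem powerClosure_center_normal [Finite S] (p : ℕ) [Fact p.Prime] (hS : IsPGroup p S)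
    (F : FusionSystem S) (hF : F.IsSaturated p) (n : ℕ)
    (hcl : Subgroup.lowerCentralSeries S (n * (p - 1) + 1) = ⊥) :
    F.IsNormal (Cfsg.powerClosure p n (S ⊓ Subgroup.centralizer (S : Set Ω))) := by
  classical
  have hZmem : ∀ z, z ∈ S ⊓ Subgroup.centralizer (S : Set Ω) ↔ z ∈ S ∧ ∀ s ∈ S, s * z = z * s := by
    intro z
    rw [Subgroup.mem_inf, Subgroup.mem_centralizer_iff]
    rfl
  have hVle : Cfsg.powerClosure p n (S ⊓ Subgroup.centralizer (S : Set Ω)) ≤
      S ⊓ Subgroup.centralizer (S : Set Ω) := by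
    unfold Cfsg.powerClosure
    rw [Subgroup.closure_le]
    rintro y ⟨x, hx, rfl⟩
    exact Subgroup.pow_mem _ hx _
  have hgen : ∀ z ∈ S ⊓ Subgroup.centralizer (S : Set Ω),
      z ^ (p ^ n) ∈ Cfsg.powerClosure p n (S ⊓ Subgroup.centralizer (S : Set Ω)) :=
    fun z hz => Subgroup.subset_closure ⟨z, hz, rfl⟩
  have hVdef : Cfsg.powerClosure p n (S ⊓ Subgroup.centralizer (S : Set Ω)) =
      Subgroup.closure {y : Ω | ∃ x ∈ S ⊓ Subgroup.centralizer (S : Set Ω), y = x ^ (p ^ n)} := rfl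
  generalize Cfsg.powerClosure p n (S ⊓ Subgroup.centralizer (S : Set Ω)) = V at hVle hgen hVdef
  have hVS : V ≤ S := hVle.trans inf_le_left
  have hVZ : ∀ v ∈ V, ∀ s ∈ S, s * v = v * s := fun v hv => ((hZmem v).1 (hVle hv)).2
  -- the elementwise class condition
  have hiter : ∀ g ∈ S, ∀ v ∈ S, (fun w => g * w * g⁻¹ * w⁻¹)^[n * (p - 1) + 1] v = 1 := by
    intro g hg v hv
    have h1 : ∀ k : ℕ, (fun w => g * w * g⁻¹ * w⁻¹)^[k] v ∈ Subgroup.lowerCentralSeries S k := by
      intro k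
      induction k with
      | zero =>
        rw [Subgroup.lowerCentralSeries_zero]
        exact hv
      | succ k ih =>
        rw [Function.iterate_succ_apply', Subgroup.lowerCentralSeries_succ]
        have h2 : ∀ w : Ω, g * w * g⁻¹ * w⁻¹ = (⁅w, g⁆)⁻¹ := by
          intro w
          rw [commutatorElement_def]
          group
        rw [h2]
        exact Subgroup.inv_mem _ (Subgroup.commutator_mem_commutator ih hg)
    have h2 := h1 (n * (p - 1) + 1)
    rw [hcl, Subgroup.mem_bot] at h2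
    exact h2
  -- the predicate
  have hcongr : ∀ (P : Subgroup Ω) (f g : Ω → Ω), Mor F P f → (∀ x ∈ P, f x = g x) →
      (∀ x ∈ P, (f x ∈ V ↔ x ∈ V)) → ∀ x ∈ P, (g x ∈ V ↔ x ∈ V) := by
    intro P f g _ hfg hgood x hx
    rw [← hfg x hx]
    exact hgood x hx
  have hconj : ∀ (P : Subgroup Ω) (g : Ω), P ≤ S → g ∈ S → ∀ x ∈ P, (g * x * g⁻¹ ∈ V ↔ x ∈ V) := by
    intro P g _ hg x _
    constructor
    · intro h
      have h1 := hVZ _ h g⁻¹ (S.inv_mem hg)
      have h2 : x = g * x * g⁻¹ := by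
        calc x = g⁻¹ * (g * x * g⁻¹) * g := by group
          _ = (g * x * g⁻¹) * g⁻¹ * g := by rw [h1]
          _ = g * x * g⁻¹ := by group
      rw [h2]
      exact h
    · intro h
      have h1 := hVZ x h g hg
      have h2 : g * x * g⁻¹ = x := by rw [h1]; group
      rw [h2]
      exact h
  have hcomp : ∀ (P Q : Subgroup Ω) (f g : Ω → Ω), Mor F P f → Mor F Q g → (∀ x ∈ P, f x ∈ Q) →
      (∀ x ∈ P, (f x ∈ V ↔ x ∈ V)) → (∀ x ∈ Q, (g x ∈ V ↔ x ∈ V)) →
      ∀ x ∈ P, ((g ∘ f) x ∈ V ↔ x ∈ V) := by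
    intro P Q f g _ _ hmaps hgf hgg x hx
    exact (hgg (f x) (hmaps x hx)).trans (hgf x hx)
  have hinv : ∀ (P : Subgroup Ω) (f : Ω → Ω), Mor F P f → (∀ x ∈ P, (f x ∈ V ↔ x ∈ V)) →
      ∀ z ∈ imgS P f, (invOn P f z ∈ V ↔ z ∈ V) := by
    intro P f hf hgood z hz
    obtain ⟨y, hy, rfl⟩ := hf.mem_imgS.1 hz
    rw [invOn_apply hf.injOn hy]
    exact (hgood y hy).symm
  -- centric subgroups contain `Z(S)`
  have hZcen : ∀ R : Subgroup Ω, F.IsCentric R → S ⊓ Subgroup.centralizer (S : Set Ω) ≤ R := by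
    intro R hR z hz
    obtain ⟨hzS, hzc⟩ := (hZmem z).1 hz
    refine hR.2 R (isConj_refl F hR.1) ?_
    rw [mem_centralizerIn_iff]
    exact ⟨hzS, fun y hy => hzc y (hR.1 hy)⟩
  have hsuff : ∀ R : Subgroup Ω, (∀ α ∈ F.autGroup R, ∀ x ∈ V, x ∈ R → autFun R α x ∈ V) →
      ∀ α ∈ F.autGroup R, ∀ x ∈ R, (autFun R α x ∈ V ↔ x ∈ V) := by
    intro R h α hα x hx
    refine ⟨fun hfx => ?_, fun hxV => h α hα x hxV hx⟩
    have h1 := h α⁻¹ (Subgroup.inv_mem _ hα) _ hfx (autFun_mem α hx)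
    rwa [autFun_inv_apply α hx] at h1
  -- downward induction
  have claim : ∀ (k : ℕ) (R : Subgroup Ω), (R = S ∨ F.IsEssential p R) → Nat.card S - Nat.card R = k →
      ∀ α ∈ F.autGroup R, ∀ x ∈ R, (autFun R α x ∈ V ↔ x ∈ V) := by
    intro k
    induction k using Nat.strong_induction_on with
    | _ k ihk =>
    intro R hR hk
    have hRS : R ≤ S := by
      rcases hR with rfl | hess
      · exact le_rfl
      · exact hess.1.1
    refine hsuff R ?_
    intro α hα x hx hxR
    have hαM := (mem_autGroup_iff hRS α).1 hα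
    by_cases hReq : R = S
    · subst hReq
      rw [hVdef] at hx ⊢
      refine Mor.map_mem_of_closure hαM ?_ ?_ x hx
      · rintro y ⟨z, hz, rfl⟩
        exact Subgroup.pow_mem _ ((hZmem z).1 hz).1 _
      · rintro y ⟨z, hz, rfl⟩
        obtain ⟨hzS, hzc⟩ := (hZmem z).1 hz
        rw [hαM.map_pow hzS]
        refine Subgroup.subset_closure ⟨autFun R α z, ?_, rfl⟩
        rw [hZmem]
        refine ⟨autFun_mem α hzS, fun s hs => ?_⟩
        have h1 : autFun R α (autFun R α⁻¹ s) = s := autFun_apply_inv α hs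
        have h2 : autFun R α⁻¹ s ∈ R := autFun_mem α⁻¹ hs
        rw [← h1, ← hαM.map_mul h2 hzS, ← hαM.map_mul hzS h2, hzc _ h2]
    · have hess : F.IsEssential p R := by
        rcases hR with h | h
        · exact absurd h hReq
        · exact h
      have hRlt : R < S := lt_of_le_of_ne hRS hReq
      have hNS : normalizerIn S R ≤ S := inf_le_left
      haveI hfinN : Finite (normalizerIn S R) := finite_of_le hNS
      haveI hfinR : Finite R := finite_of_le hRS
      have hcardN : Nat.card R < Nat.card (normalizerIn S R) := card_lt_card_of_lt (lt_normalizerIn hS hRlt)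
      have hRN : R ≤ normalizerIn S R := le_normalizerIn hRS
      have IH : ∀ (P : Subgroup Ω) (f : Ω → Ω), Mor F P f → Nat.card R + 1 ≤ Nat.card P →
          ∀ y ∈ P, (f y ∈ V ↔ y ∈ V) := by
        refine alperin_pred hS hF (fun P f => ∀ y ∈ P, (f y ∈ V ↔ y ∈ V)) hcongr hconj hcomp hinv
          (Nat.card R + 1) ?_
        intro R' hR' hcard α' hα'
        have hR'S : R' ≤ S := by
          rcases hR' with rfl | hess'
          · exact le_rfl
          · exact hess'.1.1
        have h1 : Nat.card R' ≤ Nat.card S := Subgroup.card_le_of_le hR'S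
        exact ihk (Nat.card S - Nat.card R') (by omega) R' hR' rfl α' hα'
      have hZR : S ⊓ Subgroup.centralizer (S : Set Ω) ≤ R := hZcen R hess.1
      obtain ⟨G, _, _, ι, T, hinj, hT, hcon, -, -, haut, hconjmap⟩ :=
        exists_model_data hS hF hess.2.1 hess.1
      have hclT : ∀ g ∈ (T : Subgroup G), ∀ v ∈ (T : Subgroup G),
          (fun w => g * w * g⁻¹ * w⁻¹)^[n * (p - 1) + 1] v = 1 := by
        intro g hg v hv
        rw [hT] at hg hv
        obtain ⟨a, rfl⟩ := hg
        obtain ⟨b, rfl⟩ := hv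
        rw [← map_iterate_comm]
        have h1 : (fun w : ↥(normalizerIn S R) => a * w * a⁻¹ * w⁻¹)^[n * (p - 1) + 1] b = 1 := by
          apply Subtype.ext
          rw [coe_iterate_comm]
          exact hiter a (hNS a.2) b (hNS b.2)
        rw [h1, map_one]
      obtain ⟨g, hg⟩ := haut (autFun R α) hαM (imgS_autFun hαM)
      obtain ⟨c, h, hgch, hc, hh⟩ := cent_mul_norm n (Nat.card G) G rfl hcon T hclT g
      obtain ⟨ψ, hψ, hψι⟩ := hconjmap (normalizerIn S R) le_rfl h (fun a => by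
        have h1 : ι ⟨a, a.2⟩ ∈ (T : Subgroup G) := by rw [hT]; exact ⟨_, rfl⟩
        exact (Subgroup.mem_normalizer_iff.1 hh _).1 h1)
      have hgoodψ := IH _ ψ hψ (by omega)
      have hxN : x ∈ normalizerIn S R := hRN hxR
      have hψxV : ψ x ∈ V := (hgoodψ x hxN).2 hx
      -- `c` centralizes the image of `V`
      have hVK : V ≤ ((Subgroup.centralizer ({c} : Set G)).comap ι).map (normalizerIn S R).subtype := by
        rw [hVdef, Subgroup.closure_le]
        rintro y ⟨z, hz, rfl⟩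
        have hzN : z ∈ normalizerIn S R := hRN (hZR hz)
        obtain ⟨hzS, hzc⟩ := (hZmem z).1 hz
        refine ⟨(⟨z, hzN⟩ : ↥(normalizerIn S R)) ^ (p ^ n), ?_, rfl⟩
        rw [SetLike.mem_coe, Subgroup.mem_comap, map_pow, Subgroup.mem_centralizer_iff]
        intro c' hc'
        rw [Set.mem_singleton_iff.1 hc']
        refine hc (ι ⟨z, hzN⟩) (by rw [hT]; exact ⟨_, rfl⟩) (fun y hy => ?_)
        rw [hT] at hy
        obtain ⟨y', rfl⟩ := hy
        rw [← map_mul, ← map_mul]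
        congr 1
        exact Subtype.ext (hzc y' (hNS y'.2))
      have hcV : ∀ (v : Ω) (hvN : v ∈ normalizerIn S R), v ∈ V → c * ι ⟨v, hvN⟩ = ι ⟨v, hvN⟩ * c := by
        intro v hvN hv
        obtain ⟨v', hv', hv'v⟩ := hVK hv
        have h1 : (⟨v, hvN⟩ : ↥(normalizerIn S R)) = v' := Subtype.ext hv'v.symm
        rw [h1]
        have h2 := Subgroup.mem_centralizer_iff.1 (Subgroup.mem_comap.1 hv') c rfl
        exact h2
      obtain ⟨hfx, hfxι⟩ := hg x hxN hxR
      obtain ⟨hψx, hψxι⟩ := hψι x hxN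
      have h1 : ι ⟨autFun R α x, hfx⟩ = ι ⟨ψ x, hψx⟩ := by
        rw [hfxι, hgch]
        calc c * h * ι ⟨x, hxN⟩ * (c * h)⁻¹ = c * (h * ι ⟨x, hxN⟩ * h⁻¹) * c⁻¹ := by group
          _ = c * ι ⟨ψ x, hψx⟩ * c⁻¹ := by rw [hψxι]
          _ = ι ⟨ψ x, hψx⟩ := by rw [hcV _ hψx hψxV]; group
      have h2 : autFun R α x = ψ x := congrArg Subtype.val (hinj h1)
      rw [h2]
      exact hψxV
  have key := alperin_pred hS hF (fun P f => ∀ y ∈ P, (f y ∈ V ↔ y ∈ V)) hcongr hconj hcomp hinv 0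
    (fun R hR _ α hα => claim _ R hR rfl α hα)
  rw [isNormal_iff_stronglyClosed hS hF]
  refine ⟨?_, fun P hPc _ => hVle.trans (hZcen P hPc)⟩
  rw [stronglyClosed_iff]
  refine ⟨hVS, fun R f hRV hf x hx => ?_⟩
  exact (key R f hf (Nat.zero_le _) x hx).2 (hRV hx)

end Cfsg.Agent.H86
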