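import Mathlib

set_option autoImplicit false
set_option maxHeartbeats 400000

namespace Cfsg.Agent.H86

/-- A `p`-element normalizing a cyclic group of order dividing `p` centralizes it. -/
theorem conj_eq_self_of_mem_zpowers {G : Type*} [Group G] {p : ℕ} [hp : Fact p.Prime] {s x : G} {a : ℕ}
    (hs : s ^ (p ^ a) = 1) (hx : x ^ p = 1) (h : s * x * s⁻¹ ∈ Subgroup.zpowers x) :
    s * x * s⁻¹ = x := by
  obtain ⟨k, hk⟩ := Subgroup.mem_zpowers_iff.1 h
  have hiter : ∀ n : ℕ, s ^ n * x * (s ^ n)⁻¹ = x ^ (k ^ n) := by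
    intro n
    induction n with
    | zero => simp
    | succ n ih =>
      have h1 : s ^ (n + 1) * x * (s ^ (n + 1))⁻¹ = s * (s ^ n * x * (s ^ n)⁻¹) * s⁻¹ := by
        rw [pow_succ']; group
      rw [h1, ih, ← conj_zpow, ← hk, ← zpow_mul, pow_succ']
  by_cases hx1 : x = 1
  · rw [hx1]; group
  have hord : orderOf x = p := by
    rcases (Nat.dvd_prime hp.out).1 (orderOf_dvd_of_pow_eq_one hx) with h1 | h1
    · exact absurd (orderOf_eq_one_iff.1 h1) hx1
    · exact h1
  have h2 := hiter (p ^ a)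
  rw [hs, one_mul, inv_one, mul_one] at h2
  have h3 : x ^ (1 : ℤ) = x ^ (k ^ (p ^ a)) := by rw [zpow_one]; exact h2
  rw [zpow_eq_zpow_iff_modEq, hord, ← ZMod.intCast_eq_intCast_iff] at h3
  push_cast at h3
  rw [ZMod.pow_card_pow] at h3
  have h4 : k ≡ 1 [ZMOD (orderOf x)] := by
    rw [hord, ← ZMod.intCast_eq_intCast_iff]
    push_cast
    exact h3.symm
  rw [← hk, ← zpow_one x]
  conv_lhs => rw [zpow_one]
  exact zpow_eq_zpow_iff_modEq.2 h4

end Cfsg.Agent.H86
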