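import Mathlib

set_option autoImplicit false
set_option maxHeartbeats 800000

/-!
If the centre of a group has exponent dividing `e`, then the `i`-th term of the upper central series has
exponent dividing `e ^ i`.
-/

namespace Cfsg.Agent.H86

open scoped commutatorElement

theorem pow_mem_upperCentralSeries {H : Type*} [Group H] (e : ℕ)
    (hz : ∀ z ∈ Subgroup.center H, z ^ e = 1) :
    ∀ (i : ℕ) (x : H), x ∈ Subgroup.upperCentralSeries H (i + 1) →
      x ^ e ∈ Subgroup.upperCentralSeries H i := by
  intro i
  induction i with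
  | zero =>
    intro x hx
    rw [zero_add, Subgroup.upperCentralSeries_one] at hx
    rw [Subgroup.upperCentralSeries_zero, Subgroup.mem_bot]
    exact hz x hx
  | succ i ih =>
    intro x hx
    rw [Subgroup.mem_upperCentralSeries_succ_iff]
    intro y
    have ha : ⁅x, y⁆ ∈ Subgroup.upperCentralSeries H (i + 1) :=
      Subgroup.mem_upperCentralSeries_succ_iff.1 hx y
    have hae : ⁅x, y⁆ ^ e ∈ Subgroup.upperCentralSeries H i := ih _ ha
    have hacen : ∀ w : H, ⁅⁅x, y⁆, w⁆ ∈ Subgroup.upperCentralSeries H i :=
      fun w => Subgroup.mem_upperCentralSeries_succ_iff.1 ha w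
    -- work in the quotient
    have hA : ∀ W : H ⧸ Subgroup.upperCentralSeries H i,
        (QuotientGroup.mk' (Subgroup.upperCentralSeries H i) ⁅x, y⁆) * W =
          W * (QuotientGroup.mk' (Subgroup.upperCentralSeries H i) ⁅x, y⁆) := by
      intro W
      obtain ⟨w, rfl⟩ := QuotientGroup.mk'_surjective _ W
      have h1 := hacen w
      have h2 : QuotientGroup.mk' (Subgroup.upperCentralSeries H i) ⁅⁅x, y⁆, w⁆ = 1 :=
        (QuotientGroup.eq_one_iff _).2 h1
      rw [commutatorElement_def, map_mul, map_mul, map_mul, map_inv, map_inv] at h2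
      have h3 := mul_inv_eq_one.1 h2
      have h4 := mul_inv_eq_iff_eq_mul.1 h3
      exact h4
    have hXY : (QuotientGroup.mk' (Subgroup.upperCentralSeries H i) x) *
        (QuotientGroup.mk' (Subgroup.upperCentralSeries H i) y) =
        (QuotientGroup.mk' (Subgroup.upperCentralSeries H i) ⁅x, y⁆) *
          (QuotientGroup.mk' (Subgroup.upperCentralSeries H i) y) *
          (QuotientGroup.mk' (Subgroup.upperCentralSeries H i) x) := by
      rw [← map_mul, ← map_mul, ← map_mul, commutatorElement_def]
      congr 1
      group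
    have hAe : (QuotientGroup.mk' (Subgroup.upperCentralSeries H i) ⁅x, y⁆) ^ e = 1 := by
      rw [← map_pow]
      exact (QuotientGroup.eq_one_iff _).2 hae
    generalize QuotientGroup.mk' (Subgroup.upperCentralSeries H i) ⁅x, y⁆ = A at hA hXY hAe
    have hpow : ∀ k : ℕ, (QuotientGroup.mk' (Subgroup.upperCentralSeries H i) x) ^ k *
        (QuotientGroup.mk' (Subgroup.upperCentralSeries H i) y) =
        A ^ k * (QuotientGroup.mk' (Subgroup.upperCentralSeries H i) y) *
          (QuotientGroup.mk' (Subgroup.upperCentralSeries H i) x) ^ k := by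
      intro k
      induction k with
      | zero => simp
      | succ k ihk =>
        have hAk : Commute (QuotientGroup.mk' (Subgroup.upperCentralSeries H i) x) (A ^ k) := by
          have h1 : Commute A (QuotientGroup.mk' (Subgroup.upperCentralSeries H i) x) := hA _
          exact (h1.pow_left k).symm
        calc (QuotientGroup.mk' (Subgroup.upperCentralSeries H i) x) ^ (k + 1) *
              (QuotientGroup.mk' (Subgroup.upperCentralSeries H i) y)
            = (QuotientGroup.mk' (Subgroup.upperCentralSeries H i) x) *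
              ((QuotientGroup.mk' (Subgroup.upperCentralSeries H i) x) ^ k *
              (QuotientGroup.mk' (Subgroup.upperCentralSeries H i) y)) := by rw [pow_succ']; group
          _ = ((QuotientGroup.mk' (Subgroup.upperCentralSeries H i) x) * A ^ k) *
              (QuotientGroup.mk' (Subgroup.upperCentralSeries H i) y) *
              (QuotientGroup.mk' (Subgroup.upperCentralSeries H i) x) ^ k := by rw [ihk]; group
          _ = A ^ k * ((QuotientGroup.mk' (Subgroup.upperCentralSeries H i) x) *
              (QuotientGroup.mk' (Subgroup.upperCentralSeries H i) y)) *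
              (QuotientGroup.mk' (Subgroup.upperCentralSeries H i) x) ^ k := by rw [hAk.eq]; group
          _ = A ^ (k + 1) * (QuotientGroup.mk' (Subgroup.upperCentralSeries H i) y) *
              (QuotientGroup.mk' (Subgroup.upperCentralSeries H i) x) ^ (k + 1) := by
            rw [hXY, pow_succ, pow_succ']; group
    have h5 : QuotientGroup.mk' (Subgroup.upperCentralSeries H i) ⁅x ^ e, y⁆ = A ^ e := by
      rw [commutatorElement_def, map_mul, map_mul, map_mul, map_inv, map_inv, map_pow, hpow e]
      group
    rw [hAe] at h5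
    exact (QuotientGroup.eq_one_iff _).1 h5

theorem pow_eq_one_of_mem_upperCentralSeries {H : Type*} [Group H] (e : ℕ)
    (hz : ∀ z ∈ Subgroup.center H, z ^ e = 1) :
    ∀ (i : ℕ) (x : H), x ∈ Subgroup.upperCentralSeries H i → x ^ (e ^ i) = 1 := by
  intro i
  induction i with
  | zero =>
    intro x hx
    rw [Subgroup.upperCentralSeries_zero, Subgroup.mem_bot] at hx
    rw [hx, one_pow]
  | succ i ih =>
    intro x hx
    have h1 := ih _ (pow_mem_upperCentralSeries e hz i x hx)
    rw [pow_succ', pow_mul]
    exact h1

/-- A subgroup whose relative lower central series reaches `⊥` at `c` is its own `c`-th upper central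
term. -/
theorem mem_upperCentralSeries_of_lowerCentralSeries {Ω : Type*} [Group Ω] (S : Subgroup Ω) (c : ℕ)
    (hcl : Subgroup.lowerCentralSeries S c = ⊥) :
    ∀ (j : ℕ), j ≤ c → ∀ x : ↥S, (x : Ω) ∈ Subgroup.lowerCentralSeries S (c - j) →
      x ∈ Subgroup.upperCentralSeries ↥S j := by
  intro j
  induction j with
  | zero =>
    intro _ x hx
    rw [Nat.sub_zero, hcl, Subgroup.mem_bot] at hx
    rw [Subgroup.upperCentralSeries_zero, Subgroup.mem_bot]
    exact Subtype.ext hx
  | succ j ih =>
    intro hj x hx
    rw [Subgroup.mem_upperCentralSeries_succ_iff]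
    intro y
    apply ih (by omega)
    have h1 : c - j = (c - (j + 1)) + 1 := by omega
    rw [h1, Subgroup.lowerCentralSeries_succ]
    have h2 : ((⁅x, y⁆ : ↥S) : Ω) = ⁅(x : Ω), (y : Ω)⁆ := rfl
    rw [h2]
    exact Subgroup.commutator_mem_commutator hx y.2

theorem exponent_dvd_of_class {Ω : Type*} [Group Ω] (S : Subgroup Ω) (c e : ℕ)
    (hcl : Subgroup.lowerCentralSeries S c = ⊥)
    (hz : ∀ z ∈ S ⊓ Subgroup.centralizer (S : Set Ω), z ^ e = 1) :
    Monoid.exponent ↥S ∣ e ^ c := by
  apply Monoid.exponent_dvd_of_forall_pow_eq_one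
  intro x
  refine pow_eq_one_of_mem_upperCentralSeries e ?_ c x ?_
  · intro z hzc
    apply Subtype.ext
    rw [Subgroup.coe_pow]
    refine hz _ (Subgroup.mem_inf.2 ⟨z.2, ?_⟩)
    rw [Subgroup.mem_centralizer_iff]
    intro s hs
    have h1 := Subgroup.mem_center_iff.1 hzc ⟨s, hs⟩
    exact congrArg Subtype.val h1
  · refine mem_upperCentralSeries_of_lowerCentralSeries S c hcl c le_rfl x ?_
    rw [Nat.sub_self, Subgroup.lowerCentralSeries_zero]
    exact x.2

end Cfsg.Agent.H86
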