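import Mathlib
import Cfsg.Agent.H9.J2FDefs

set_option autoImplicit false

/-! S5321 team project (helper9), piece CLQ: a nontrivial strongly closed subgroup of `P`
contains `Q`. -/

namespace Cfsg.Agent.H86.J2F

open Cfsg.Agent.H9.J2F

universe u

theorem clQ : Cfsg.Agent.H9.J2F.StClQ.{u} := by
  intro hPZ J _ _ D P hPC hQP hZP T hTP hT1 hsc
  -- `T` as a normal subgroup of `P`
  have hnorm : (T.subgroupOf (P : Subgroup J)).Normal := by
    constructor
    intro n hn g
    rw [Subgroup.mem_subgroupOf] at hn ⊢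
    have h1 : ((g * n * g⁻¹ : ↥(P : Subgroup J)) : J) = (g : J) * (n : J) * (g : J)⁻¹ := by
      simp
    rw [h1]
    apply hsc _ hn
    rw [← h1]
    exact (g * n * g⁻¹).2
  have hne : T.subgroupOf (P : Subgroup J) ≠ ⊥ := by
    intro h
    apply hT1
    rw [eq_bot_iff]
    intro x hx
    have h2 : (⟨x, hTP hx⟩ : ↥(P : Subgroup J)) ∈ T.subgroupOf (P : Subgroup J) := by
      rw [Subgroup.mem_subgroupOf]
      exact hx
    rw [h, Subgroup.mem_bot] at h2
    rw [Subgroup.mem_bot]
    exact congrArg Subtype.val h2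
  obtain ⟨z, hzN, hz1, hzc⟩ := hPZ ↥(P : Subgroup J) P.isPGroup' _ hnorm hne
  have hzT : (z : J) ∈ T := Subgroup.mem_subgroupOf.1 hzN
  have hz1' : (z : J) ≠ 1 := by
    intro h
    apply hz1
    exact Subtype.ext h
  have hzt : (z : J) = D.t := by
    rcases hZP (z : J) z.2 (fun x hx => by
      have := hzc ⟨x, hx⟩
      exact congrArg Subtype.val this) with h | h
    · exact absurd h hz1'
    · exact h
  have htT : D.t ∈ T := hzt ▸ hzT
  -- conjugates of `t` in `Q` lie in `T`
  refine D.hgen.trans ?_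
  rw [Subgroup.closure_le]
  rintro x ⟨hxQ, d, rfl⟩
  exact hsc _ htT d (hQP hxQ)

example : Cfsg.Agent.H9.J2F.StClQ.{u} := clQ

end Cfsg.Agent.H86.J2F
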