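import Mathlib
import Cfsg.Agent.H9.J2FDefs

set_option autoImplicit false

/-! S5321 team project (helper9), piece GEN: `C` is generated by 2-elements of `N(Q)`. -/

namespace Cfsg.Agent.H86.J2F

open Cfsg.Agent.H9.J2F

universe u

theorem gen : Cfsg.Agent.H9.J2F.StGen.{u} := by
  intro hA5I J _ _ D g hg
  -- `C ≤ N(Q)`
  have hconj : ∀ c ∈ D.C, ∀ x ∈ D.Q, c * x * c⁻¹ ∈ D.Q := by
    intro c hc x hx
    rw [D.mem_Q] at hx ⊢
    obtain ⟨hxC, hx1⟩ := hx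
    refine ⟨D.C.mul_mem (D.C.mul_mem hc hxC) (D.C.inv_mem hc), ?_⟩
    have e : (⟨c * x * c⁻¹, D.C.mul_mem (D.C.mul_mem hc hxC) (D.C.inv_mem hc)⟩ : ↥D.C) =
        ⟨c, hc⟩ * ⟨x, hxC⟩ * (⟨c, hc⟩ : ↥D.C)⁻¹ := rfl
    rw [e, map_mul, map_mul, hx1, mul_one, map_inv, mul_inv_cancel]
  have hCN : ∀ c ∈ D.C, c ∈ Subgroup.normalizer (D.Q : Set J) := by
    intro c hc
    rw [Subgroup.mem_normalizer_iff]
    intro x
    constructor
    · intro hx
      exact hconj c hc x hx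
    · intro hx
      have h := hconj c⁻¹ (D.C.inv_mem hc) _ hx
      have e : c⁻¹ * (c * x * c⁻¹) * c⁻¹⁻¹ = x := by group
      rw [e] at h
      exact h
  -- elements of `Q` are 2-elements
  have hQ2 : ∀ q ∈ D.Q, ∃ k : ℕ, orderOf q = 2 ^ k := by
    intro q hq
    have h1 : orderOf (⟨q, hq⟩ : ↥D.Q) ∣ 2 ^ 5 := by
      have := orderOf_dvd_natCard (⟨q, hq⟩ : ↥D.Q)
      rw [D.card_Q] at this
      exact this
    have h2 : orderOf (⟨q, hq⟩ : ↥D.Q) = orderOf q := by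
      rw [← Subgroup.orderOf_coe]
    rw [h2] at h1
    obtain ⟨k, -, hk⟩ := (Nat.dvd_prime_pow Nat.prime_two).1 h1
    exact ⟨k, hk⟩
  have hQpow : ∀ q ∈ D.Q, q ^ 32 = 1 := by
    intro q hq
    have h1 : (⟨q, hq⟩ : ↥D.Q) ^ 32 = 1 := by
      rw [← D.card_Q]
      exact pow_card_eq_one'
    have := congrArg Subtype.val h1
    simpa using this
  set K : Subgroup J := Subgroup.closure {y : J | y ∈ Subgroup.normalizer (D.Q : Set J) ∧
    ∃ k : ℕ, orderOf y = 2 ^ k} with hK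
  have hQK : D.Q ≤ K := by
    intro q hq
    exact Subgroup.subset_closure ⟨hCN q (D.Q_le hq), hQ2 q hq⟩
  -- lifts of involutions
  have hinv : ∀ c : ↥D.C, D.φ c * D.φ c = 1 → (c : J) ∈ K := by
    intro c hc
    have h1 : ((c : J) * (c : J)) ∈ D.Q := by
      rw [D.mem_Q]
      refine ⟨D.C.mul_mem c.2 c.2, ?_⟩
      have e : (⟨(c : J) * (c : J), D.C.mul_mem c.2 c.2⟩ : ↥D.C) = c * c := rfl
      rw [e, map_mul, hc]
    have h2 : (c : J) ^ 64 = 1 := by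
      have h3 := hQpow _ h1
      have e : (c : J) ^ 64 = ((c : J) * (c : J)) ^ 32 := by
        rw [← pow_two, ← pow_mul]
      rw [e, h3]
    have h4 : orderOf (c : J) ∣ 2 ^ 6 := orderOf_dvd_of_pow_eq_one h2
    obtain ⟨k, -, hk⟩ := (Nat.dvd_prime_pow Nat.prime_two).1 h4
    exact Subgroup.subset_closure ⟨hCN _ c.2, k, hk⟩
  -- every element of the closure of the involutions of `A5` lifts into `K`
  have hlift : ∀ s ∈ Subgroup.closure {r : Equiv.Perm (Fin 5) |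
      r ∈ alternatingGroup (Fin 5) ∧ r * r = 1}, ∃ c : ↥D.C, (c : J) ∈ K ∧ D.φ c = s := by
    intro s hs
    induction hs using Subgroup.closure_induction with
    | mem r hr =>
      obtain ⟨hrA, hr2⟩ := hr
      rw [← D.hrange] at hrA
      obtain ⟨c, rfl⟩ := hrA
      exact ⟨c, hinv c hr2, rfl⟩
    | one => exact ⟨1, K.one_mem, map_one _⟩
    | mul a b _ _ iha ihb =>
      obtain ⟨c1, h1, rfl⟩ := iha
      obtain ⟨c2, h2, rfl⟩ := ihb
      exact ⟨c1 * c2, K.mul_mem h1 h2, map_mul _ _ _⟩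
    | inv a _ iha =>
      obtain ⟨c1, h1, rfl⟩ := iha
      exact ⟨c1⁻¹, K.inv_mem h1, map_inv _ _⟩
  have hφg : D.φ ⟨g, hg⟩ ∈ alternatingGroup (Fin 5) := by
    rw [← D.hrange]
    exact ⟨_, rfl⟩
  obtain ⟨c, hcK, hc⟩ := hlift _ (hA5I _ hφg)
  have h5 : g * (c : J)⁻¹ ∈ D.Q := by
    rw [D.mem_Q]
    refine ⟨D.C.mul_mem hg (D.C.inv_mem c.2), ?_⟩
    have e : (⟨g * (c : J)⁻¹, D.C.mul_mem hg (D.C.inv_mem c.2)⟩ : ↥D.C) = ⟨g, hg⟩ * c⁻¹ := rfl
    rw [e, map_mul, map_inv, hc, mul_inv_cancel]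
  have h6 : g = g * (c : J)⁻¹ * (c : J) := by group
  rw [h6]
  exact K.mul_mem (hQK h5) hcK

example : Cfsg.Agent.H9.J2F.StGen.{u} := gen

end Cfsg.Agent.H86.J2F
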