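import Mathlib
import Cfsg.Prelude.Def_FusionSystem
import Cfsg.Agent.H86.NCMax

set_option autoImplicit false
set_option maxHeartbeats 800000

/-!
Displacements of maps fixing `T` elementwise: if `E` is normal in the saturated system `F` over
`T`, and every subgroup of `C_S(T)` centralizing `E` lies in `T`, then a map of `F` defined on
`Y T` (`Y ≤ C_S(T)`) that is the identity on `T` moves every `y ∈ Y` by an element of `T`.
-/

namespace Cfsg.Agent.H86

open Cfsg Cfsg.FusionSystem Cfsg.Agent.H87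

variable {Ω : Type*} [Group Ω] {S T : Subgroup Ω}

lemma ol_centralizerIn_anti {S P Q : Subgroup Ω} (h : P ≤ Q) : centralizerIn S Q ≤ centralizerIn S P := by
  intro c hc
  obtain ⟨hcS, hcQ⟩ := mem_centralizerIn_iff.1 hc
  exact mem_centralizerIn_iff.2 ⟨hcS, fun x hx => hcQ x (h hx)⟩

/-- The key displacement lemma. -/
theorem disp_mem_of_fix [Finite S] {p : ℕ} [Fact p.Prime] (hS : IsPGroup p S)
    {F : FusionSystem S} {E : FusionSystem T} (D : NormalData p F E)
    (hCE : ∀ Y : Subgroup Ω, Y ≤ centralizerIn S T →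
      (∀ P : Subgroup Ω, E.Hom P ⊆ F.centralizerHom Y P) → Y ≤ T)
    {Y : Subgroup Ω} (hY : Y ≤ centralizerIn S T) {κ : Ω → Ω} (hκ : Mor F (Y ⊔ T) κ)
    (hκT : ∀ x ∈ T, κ x = x) : ∀ y ∈ Y, y⁻¹ * κ y ∈ T := by
  have hTS : T ≤ S := D.le
  have hgenC : ∀ y ∈ Y, y⁻¹ * κ y ∈ centralizerIn S T := by
    intro y hy
    have hyC := hY hy
    have hκy : κ y ∈ centralizerIn S T := by
      rw [mem_centralizerIn_iff]
      refine ⟨hκ.mem (Subgroup.mem_sup_left hy), fun t ht => ?_⟩
      have h1 : t * y = y * t := (mem_centralizerIn_iff.1 hyC).2 t ht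
      have h2 := congrArg κ h1
      rw [hκ.map_mul (Subgroup.mem_sup_right ht) (Subgroup.mem_sup_left hy),
        hκ.map_mul (Subgroup.mem_sup_left hy) (Subgroup.mem_sup_right ht), hκT t ht] at h2
      exact h2
    exact Subgroup.mul_mem _ (Subgroup.inv_mem _ hyC) hκy
  obtain ⟨X, hX⟩ : ∃ X : Subgroup Ω, X = Subgroup.closure {z | ∃ y ∈ Y, z = y⁻¹ * κ y} := ⟨_, rfl⟩
  have hXC : X ≤ centralizerIn S T := by
    rw [hX, Subgroup.closure_le]
    rintro _ ⟨y, hy, rfl⟩
    exact hgenC y hy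
  have hXT : X ≤ T := by
    apply hCE X hXC
    apply centralizes_of_pow_fix hS D hXC
    intro R a hRc ha haR
    obtain ⟨b, g, n, hg, hga, hfoc, -, -⟩ := exists_pow_focFix' hS D hRc ha haR
    have hgM : Mor F (R ⊔ centralizerIn S R) g := hg.1.1
    refine ⟨b, g, hgM, hga, ?_⟩
    have hRT : R ≤ T := hRc.1
    have hYR : Y ≤ centralizerIn S R := hY.trans (ol_centralizerIn_anti hRT)
    have hκR : Mor F (Y ⊔ R) κ := hκ.restrict (sup_le_sup le_rfl hRT)
    have hgen : ∀ y ∈ Y, g (y⁻¹ * κ y) = y⁻¹ * κ y :=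
      hfoc Y κ hYR hκR (fun x hx => hκT x (hRT hx))
    have hXQ : centralizerIn S T ≤ R ⊔ centralizerIn S R :=
      (ol_centralizerIn_anti hRT).trans le_sup_right
    intro x hx
    have key : x ∈ R ⊔ centralizerIn S R ∧ g x = x := by
      rw [hX] at hx
      induction hx using Subgroup.closure_induction with
      | mem z hz =>
        obtain ⟨y, hy, rfl⟩ := hz
        exact ⟨hXQ (hgenC y hy), hgen y hy⟩
      | one => exact ⟨Subgroup.one_mem _, hgM.map_one⟩
      | mul u v _ _ hu hv =>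
        exact ⟨Subgroup.mul_mem _ hu.1 hv.1, by rw [hgM.map_mul hu.1 hv.1, hu.2, hv.2]⟩
      | inv u _ hu =>
        exact ⟨Subgroup.inv_mem _ hu.1, by rw [hgM.map_inv hu.1, hu.2]⟩
    exact key.2
  intro y hy
  apply hXT
  rw [hX]
  exact Subgroup.subset_closure ⟨y, hy, rfl⟩

end Cfsg.Agent.H86
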