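import Mathlib
import Cfsg.Prelude.Def_FusionSystem
import Cfsg.Agent.H86.OlDisp
import Cfsg.Agent.H86.NCClosedD
import Cfsg.Agent.H86.PredSys
import Cfsg.Agent.H86.CFEC

set_option autoImplicit false
set_option maxHeartbeats 1600000

/-!
If `E` is normal in the saturated system `F` over `T`, every subgroup of `C_S(T)` centralizing `E`
lies in `T`, and `F₀` is a saturated subsystem of `F` over `T C_S(T)` in which `E` is normal and
with `Aut_{F₀}(T) = Aut_E(T)`, then `E` has `p`-power index in `F₀`.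
-/

namespace Cfsg.Agent.H86

open Cfsg Cfsg.FusionSystem Cfsg.Agent.H87

variable {Ω : Type*} [Group Ω] {S T : Subgroup Ω}

lemma ol_mem_sup {A B : Subgroup Ω} (hcomm : ∀ a ∈ A, ∀ b ∈ B, a * b = b * a) {x : Ω}
    (hx : x ∈ A ⊔ B) : ∃ a ∈ A, ∃ b ∈ B, x = a * b := by
  rw [Subgroup.sup_eq_closure] at hx
  induction hx using Subgroup.closure_induction with
  | mem z hz =>
    rcases hz with hz | hz
    · exact ⟨z, hz, 1, B.one_mem, (mul_one z).symm⟩
    · exact ⟨1, A.one_mem, z, hz, (one_mul z).symm⟩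
  | one => exact ⟨1, A.one_mem, 1, B.one_mem, (mul_one 1).symm⟩
  | mul u v _ _ hu hv =>
    obtain ⟨a, ha, b, hb, rfl⟩ := hu
    obtain ⟨a', ha', b', hb', rfl⟩ := hv
    refine ⟨a * a', A.mul_mem ha ha', b * b', B.mul_mem hb hb', ?_⟩
    have h := hcomm a' ha' b hb
    calc a * b * (a' * b') = a * (b * a') * b' := by group
      _ = a * (a' * b) * b' := by rw [h]
      _ = a * a' * (b * b') := by group
  | inv u _ hu =>
    obtain ⟨a, ha, b, hb, rfl⟩ := hu
    refine ⟨a⁻¹, A.inv_mem ha, b⁻¹, B.inv_mem hb, ?_⟩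
    have h := hcomm a ha b hb
    calc (a * b)⁻¹ = (b * a)⁻¹ := by rw [h]
      _ = a⁻¹ * b⁻¹ := by group

/-- Maps defined on a subgroup containing `T` whose restriction to `T` lies in `E` displace
elements by elements of `T`. -/
theorem disp_mem_of_le [Finite S] {p : ℕ} [Fact p.Prime] (hS : IsPGroup p S)
    {F : FusionSystem S} {E : FusionSystem T} (D : NormalData p F E)
    (hCE : ∀ Y : Subgroup Ω, Y ≤ centralizerIn S T →
      (∀ P : Subgroup Ω, E.Hom P ⊆ F.centralizerHom Y P) → Y ≤ T)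
    {P : Subgroup Ω} (hTP : T ≤ P) {φ : Ω → Ω} (hφ : Mor F P φ)
    (hφS : ∀ x ∈ P, φ x ∈ T ⊔ centralizerIn S T) (hPS : P ≤ T ⊔ centralizerIn S T)
    (hφE : Mor E T φ) : ∀ x ∈ P, x⁻¹ * φ x ∈ T := by
  have hTS : T ≤ S := D.le
  have hS₀S : T ⊔ centralizerIn S T ≤ S := sup_le hTS inf_le_left
  haveI : Finite (T ⊔ centralizerIn S T : Subgroup Ω) := finite_of_le hS₀S
  have hcomm : ∀ a ∈ T, ∀ b ∈ centralizerIn S T, a * b = b * a :=
    fun a ha b hb => (mem_centralizerIn_iff.1 hb).2 a ha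
  have hTconj' : ∀ s ∈ S, ∀ t ∈ T, s⁻¹ * t * s ∈ T := by
    intro s hs t ht
    have := D.mapsT le_rfl (Mor.conj F hTS (S.inv_mem hs)) t ht
    rwa [inv_inv] at this
  obtain ⟨b, hb, hbT, hbC⟩ := D.n1 φ hφE
  have hφT : ∀ t ∈ T, φ t ∈ T := fun t ht => D.mapsT le_rfl (hφ.restrict hTP) t ht
  have hbmaps : ∀ x ∈ T ⊔ centralizerIn S T, b x ∈ T ⊔ centralizerIn S T := by
    intro x hx
    obtain ⟨t, ht, c, hc, rfl⟩ := ol_mem_sup hcomm hx
    rw [hb.map_mul (Subgroup.mem_sup_left ht) (Subgroup.mem_sup_right hc), hbT t ht]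
    have e : b c = c * (c⁻¹ * b c) := by group
    rw [e]
    exact Subgroup.mul_mem _ (Subgroup.mem_sup_left (hφT t ht))
      (Subgroup.mul_mem _ (Subgroup.mem_sup_right hc) (Subgroup.mem_sup_left (hbC c hc)))
  have himg : imgS (T ⊔ centralizerIn S T) b = T ⊔ centralizerIn S T := imgS_eq_of_maps hb hbmaps
  have hbinv : Mor F (T ⊔ centralizerIn S T) (invOn (T ⊔ centralizerIn S T) b) := by
    have := hb.inv
    rwa [himg] at this
  have hκ : Mor F P (invOn (T ⊔ centralizerIn S T) b ∘ φ) := hφ.comp hbinv hφS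
  have hκT : ∀ t ∈ T, (invOn (T ⊔ centralizerIn S T) b ∘ φ) t = t := by
    intro t ht
    show invOn (T ⊔ centralizerIn S T) b (φ t) = t
    rw [← hbT t ht]
    exact invOn_apply hb.injOn (Subgroup.mem_sup_left ht)
  have hκ' : Mor F ((P ⊓ centralizerIn S T) ⊔ T) (invOn (T ⊔ centralizerIn S T) b ∘ φ) :=
    hκ.restrict (sup_le inf_le_left hTP)
  have hdisp := disp_mem_of_fix hS D hCE (inf_le_right : P ⊓ centralizerIn S T ≤ centralizerIn S T)
    hκ' hκT
  intro x hx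
  obtain ⟨t, ht, c, hc, rfl⟩ := ol_mem_sup hcomm (hPS hx)
  have htP : t ∈ P := hTP ht
  have hcP : c ∈ P := by
    have e : c = t⁻¹ * (t * c) := by group
    rw [e]
    exact P.mul_mem (P.inv_mem htP) hx
  have hz := hdisp c ⟨hcP, hc⟩
  have hκc : (invOn (T ⊔ centralizerIn S T) b ∘ φ) c ∈ T ⊔ centralizerIn S T := by
    show invOn (T ⊔ centralizerIn S T) b (φ c) ∈ T ⊔ centralizerIn S T
    apply hb.invOn_mem
    rw [himg]
    exact hφS c hcP
  have hbκ : b ((invOn (T ⊔ centralizerIn S T) b ∘ φ) c) = φ c := by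
    show b (invOn (T ⊔ centralizerIn S T) b (φ c)) = φ c
    apply hb.apply_invOn
    rw [himg]
    exact hφS c hcP
  obtain ⟨z, hzdef⟩ : ∃ z, z = c⁻¹ * (invOn (T ⊔ centralizerIn S T) b ∘ φ) c := ⟨_, rfl⟩
  rw [← hzdef] at hz
  have hκcz : (invOn (T ⊔ centralizerIn S T) b ∘ φ) c = c * z := by rw [hzdef]; group
  have hφc : φ c = b c * φ z := by
    rw [← hbκ, hκcz, hb.map_mul (Subgroup.mem_sup_right hc) (Subgroup.mem_sup_left hz), hbT z hz]
  rw [hφ.map_mul htP hcP, hφc]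
  have e : (t * c)⁻¹ * (φ t * (b c * φ z)) = c⁻¹ * (t⁻¹ * φ t) * c * (c⁻¹ * b c) * φ z := by group
  rw [e]
  have hcS : c ∈ S := (mem_centralizerIn_iff.1 hc).1
  exact T.mul_mem (T.mul_mem (hTconj' c hcS _ (T.mul_mem (T.inv_mem ht) (hφT t ht))) (hbC c hc))
    (hφT z hz)

/-- If all maps of a saturated system defined on subgroups containing the strongly closed subgroup
`T` displace elements by elements of `T`, then so do all maps of the system. -/
theorem disp_mem_all [Finite S] {p : ℕ} [Fact p.Prime] (hS : IsPGroup p S) {F : FusionSystem S}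
    (hF : F.IsSaturated p) {T : Subgroup Ω} (hT : F.StronglyClosed T)
    (hbase : ∀ (P : Subgroup Ω) (f : Ω → Ω), T ≤ P → Mor F P f → ∀ x ∈ P, x⁻¹ * f x ∈ T) :
    ∀ (P : Subgroup Ω) (f : Ω → Ω), Mor F P f → ∀ x ∈ P, x⁻¹ * f x ∈ T := by
  have hTS : T ≤ S := hT.1
  have hTconj : ∀ s ∈ S, ∀ t ∈ T, s * t * s⁻¹ ∈ T :=
    fun s hs t ht => (stronglyClosed_iff.1 hT).2 T _ le_rfl (Mor.conj F hTS hs) t ht
  have hTconj' : ∀ s ∈ S, ∀ t ∈ T, s⁻¹ * t * s ∈ T := by
    intro s hs t ht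
    have := hTconj s⁻¹ (S.inv_mem hs) t ht
    rwa [inv_inv] at this
  have hmaps : ∀ (P : Subgroup Ω) (f : Ω → Ω), Mor F P f → ∀ t ∈ T, t ∈ P → f t ∈ T := by
    intro P f hf t ht htP
    have h := (stronglyClosed_iff.1 hT).2 (P ⊓ T) f inf_le_right (hf.restrict inf_le_left) t ⟨htP, ht⟩
    exact h
  let good : Subgroup Ω → (Ω → Ω) → Prop := fun P f => ∀ x ∈ P, x⁻¹ * f x ∈ T
  have hcongr : ∀ (P : Subgroup Ω) (f g : Ω → Ω), Mor F P f → (∀ x ∈ P, f x = g x) → good P f →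
      good P g := by
    intro P f g _ hfg hgood x hx
    rw [← hfg x hx]
    exact hgood x hx
  have hconj : ∀ (P : Subgroup Ω) (g : Ω), P ≤ S → g ∈ S → good P (fun x => g * x * g⁻¹) := by
    intro P g hP hg x hx
    exact hbase S _ hTS (Mor.conj F le_rfl hg) x (hP hx)
  have hcomp : ∀ (P Q : Subgroup Ω) (f g : Ω → Ω), Mor F P f → Mor F Q g → (∀ x ∈ P, f x ∈ Q) →
      good P f → good Q g → good P (g ∘ f) := by
    intro P Q f g _ _ hPQ hf hg x hx
    show x⁻¹ * g (f x) ∈ T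
    have e : x⁻¹ * g (f x) = (x⁻¹ * f x) * ((f x)⁻¹ * g (f x)) := by group
    rw [e]
    exact T.mul_mem (hf x hx) (hg _ (hPQ x hx))
  have hinv : ∀ (P : Subgroup Ω) (f : Ω → Ω), Mor F P f → good P f →
      good (imgS P f) (invOn P f) := by
    intro P f hf hgood y hy
    obtain ⟨x, hx, rfl⟩ := hf.mem_imgS.1 hy
    rw [invOn_apply hf.injOn hx]
    have e : (f x)⁻¹ * x = (x⁻¹ * f x)⁻¹ := by group
    rw [e]
    exact T.inv_mem (hgood x hx)
  have main := Cfsg.Agent.H88.alperin_induction hS hF (predSys F good hcongr hconj hcomp hinv) ?_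
  · intro P f hf
    exact (mor_predSys_iff.1 (main P f hf)).2
  intro R hRa hRr IH
  have hRS : R ≤ S := hRa.1
  haveI : Finite R := finite_of_le hRS
  have hM : ∀ κ ∈ F.autGroup R, Mor F R (autFun R κ) := fun κ hκ => (mem_autGroup_iff hRS κ).1 hκ
  have key0 : ∀ β ∈ F.autGroup R, (∀ x ∈ R, x⁻¹ * autFun R β x ∈ T) →
      β ∈ (predSys F good hcongr hconj hcomp hinv).autGroup R := by
    intro β hβ h
    rw [mem_autGroup_iff hRS]
    exact mor_predSys_iff.2 ⟨hM β hβ, h⟩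
  have key1 : ∀ β ∈ F.autGroup R, ∀ s ∈ extSub S R (autFun R β), s ∉ R →
      β ∈ (predSys F good hcongr hconj hcomp hinv).autGroup R := by
    intro β hβ s hs hsR
    rw [mem_autGroup_iff hRS]
    exact mor_of_ext_mem _ hRr IH (hM β hβ) (imgS_autFun (hM β hβ)) hs hsR
  intro α hα
  have hf : Mor F R (autFun R α) := hM α hα
  by_cases hTR : T ≤ R
  · exact key0 α hα (hbase R _ hTR hf)
  obtain ⟨R₀, hR₀⟩ := hRa.2
  have hV : ∀ κ ∈ F.autGroup R, ∀ x ∈ R, x ∈ T → autFun R κ x ∈ T :=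
    fun κ hκ x hx hxT => hmaps R _ (hM κ hκ) x hxT hx
  let N : Subgroup (F.autGroup R) :=
    { carrier := {β | ∀ x ∈ R, x⁻¹ * autFun R (β : MulAut R) x ∈ T}
      one_mem' := fun x hx => by
        show x⁻¹ * autFun R (1 : MulAut R) x ∈ T
        rw [autFun_one hx, inv_mul_cancel]
        exact T.one_mem
      mul_mem' := by
        intro β β' hβR hβ'R x hx
        show x⁻¹ * autFun R ((β : MulAut R) * (β' : MulAut R)) x ∈ T
        rw [autFun_mul _ _ hx]
        have hy : autFun R (β' : MulAut R) x ∈ R := autFun_mem _ hx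
        have e : x⁻¹ * autFun R (β : MulAut R) (autFun R (β' : MulAut R) x) =
            (x⁻¹ * autFun R (β' : MulAut R) x) * ((autFun R (β' : MulAut R) x)⁻¹ *
              autFun R (β : MulAut R) (autFun R (β' : MulAut R) x)) := by group
        rw [e]
        exact T.mul_mem (hβ'R x hx) (hβR _ hy)
      inv_mem' := by
        intro β hβR x hx
        show x⁻¹ * autFun R (β : MulAut R)⁻¹ x ∈ T
        have hy : autFun R (β : MulAut R)⁻¹ x ∈ R := autFun_mem _ hx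
        have h1 := hβR _ hy
        rw [nc_autFun_apply_inv _ hx] at h1
        have e : x⁻¹ * autFun R (β : MulAut R)⁻¹ x =
            ((autFun R (β : MulAut R)⁻¹ x)⁻¹ * x)⁻¹ := by group
        rw [e]
        exact T.inv_mem h1 }
  have hNn : N.Normal := by
    refine ⟨fun β hβ κ => ?_⟩
    have hκM := hM _ κ.2
    intro x hx
    show x⁻¹ * autFun R ((κ : MulAut R) * (β : MulAut R) * (κ : MulAut R)⁻¹) x ∈ T
    have hy : autFun R (κ : MulAut R)⁻¹ x ∈ R := autFun_mem _ hx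
    have hw := hβ _ hy
    have hwR : (autFun R (κ : MulAut R)⁻¹ x)⁻¹ *
        autFun R (β : MulAut R) (autFun R (κ : MulAut R)⁻¹ x) ∈ R :=
      R.mul_mem (R.inv_mem hy) (autFun_mem _ hy)
    rw [nc_autFun_conj _ _ hx]
    have e : autFun R (β : MulAut R) (autFun R (κ : MulAut R)⁻¹ x) =
        autFun R (κ : MulAut R)⁻¹ x * ((autFun R (κ : MulAut R)⁻¹ x)⁻¹ *
          autFun R (β : MulAut R) (autFun R (κ : MulAut R)⁻¹ x)) := by group
    rw [e, hκM.map_mul hy hwR, nc_autFun_apply_inv _ hx, inv_mul_cancel_left]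
    exact hV _ κ.2 _ hwR hw
  haveI := hNn
  obtain ⟨Q₁, hQ₁⟩ := exists_sylow_eq_subgroupOf N R₀
  have hNG : ∀ β : F.autGroup R, β ∈ N →
      (β : MulAut R) ∈ (predSys F good hcongr hconj hcomp hinv).autGroup R :=
    fun β hβ => key0 _ β.2 hβ
  have hfr := Sylow.normalizer_sup_eq_top Q₁
  rw [hQ₁, Subgroup.subgroupOf_map_subtype] at hfr
  obtain ⟨t, htT, htR, htN⟩ := exists_normalizing_not_mem hS hRS hTS
    (fun r hr k hk => hTconj r (hRS hr) k hk) hTR
  obtain ⟨τ, Hτ⟩ := exists_conjAut htN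
  have hτx : ∀ x ∈ R, autFun R τ x = t * x * t⁻¹ := fun x hx => by
    rw [autFun_of_mem τ hx]
    exact Hτ ⟨x, hx⟩
  have hτS : τ ∈ autInducedBy S R := (mem_autInducedBy_iff S R τ).2 ⟨t, hTS htT, Hτ⟩
  have hτF : τ ∈ F.autGroup R := autInducedBy_le_autGroup F hRS hτS
  have hτR₀ : (⟨τ, hτF⟩ : F.autGroup R) ∈ (R₀ : Subgroup (F.autGroup R)) := by
    rw [hR₀, Subgroup.mem_subgroupOf]
    exact hτS
  have hτN : (⟨τ, hτF⟩ : F.autGroup R) ∈ N := by
    intro x hx
    show x⁻¹ * autFun R τ x ∈ T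
    rw [hτx x hx]
    have e : x⁻¹ * (t * x * t⁻¹) = (x⁻¹ * t * x) * t⁻¹ := by group
    rw [e]
    exact T.mul_mem (hTconj' x (hRS hx) t htT) (T.inv_mem htT)
  have hnorm : ∀ ν : F.autGroup R, ν ∈ Subgroup.normalizer
      ((((R₀ : Subgroup (F.autGroup R)) ⊓ N : Subgroup (F.autGroup R))) : Set (F.autGroup R)) →
      (ν : MulAut R) ∈ (predSys F good hcongr hconj hcomp hinv).autGroup R := by
    intro ν hν
    have h1 : ν * ⟨τ, hτF⟩ * ν⁻¹ ∈ (R₀ : Subgroup (F.autGroup R)) ⊓ N :=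
      (Subgroup.mem_normalizer_iff.1 hν _).1 ⟨hτR₀, hτN⟩
    have h2 : ν * ⟨τ, hτF⟩ * ν⁻¹ ∈ (R₀ : Subgroup (F.autGroup R)) := h1.1
    rw [hR₀, Subgroup.mem_subgroupOf] at h2
    obtain ⟨h, hhS, Hh⟩ := (mem_autInducedBy_iff S R _).1 h2
    refine key1 _ ν.2 t ?_ htR
    rw [mem_extSub_iff (hM _ ν.2)]
    refine ⟨hTS htT, htN, h, hhS, fun x hx => ?_⟩
    have h3 := Hh ⟨autFun R (ν : MulAut R) x, autFun_mem _ hx⟩
    rw [← hτx x hx, ← nc_autFun_conj_apply (ν : MulAut R) τ hx,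
      autFun_of_mem _ (autFun_mem (ν : MulAut R) hx)]
    exact h3
  have hα' : (⟨α, hα⟩ : F.autGroup R) ∈ Subgroup.normalizer
      ((((R₀ : Subgroup (F.autGroup R)) ⊓ N : Subgroup (F.autGroup R))) : Set (F.autGroup R)) ⊔ N := by
    rw [hfr]
    trivial
  obtain ⟨ν, hν, z, hz, hνz⟩ := Subgroup.mem_sup_of_normal_right.1 hα'
  have h5 : ((ν * z : F.autGroup R) : MulAut R) ∈
      (predSys F good hcongr hconj hcomp hinv).autGroup R :=
    Subgroup.mul_mem _ (hnorm ν hν) (hNG z hz)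
  rw [hνz] at h5
  exact h5

/-- **`E` has `p`-power index in `F₀`.** -/
theorem hasPPowerIndexIn_of_centralizer_le [Finite S] {p : ℕ} [Fact p.Prime] (hS : IsPGroup p S)
    {F : FusionSystem S} (hF : F.IsSaturated p) {T : Subgroup Ω} {E : FusionSystem T}
    (hE : E.IsNormalIn F p)
    (hCE : ∀ Y : Subgroup Ω, Y ≤ centralizerIn S T →
      (∀ P : Subgroup Ω, E.Hom P ⊆ F.centralizerHom Y P) → Y ≤ T)
    {F₀ : FusionSystem (T ⊔ centralizerIn S T)} (hF₀ : F₀.IsSaturated p)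
    (hsub : F₀.IsSubsystemOf F) (hnor : E.IsNormalIn F₀ p) (haut : F₀.autGroup T = E.autGroup T) :
    E.HasPPowerIndexIn F₀ p := by
  have D := normalData_of_isNormalIn hE
  have hTS : T ≤ S := D.le
  have hS₀S : T ⊔ centralizerIn S T ≤ S := sup_le hTS inf_le_left
  haveI : Finite (T ⊔ centralizerIn S T : Subgroup Ω) := finite_of_le hS₀S
  have hS₀ : IsPGroup p (T ⊔ centralizerIn S T : Subgroup Ω) := hS.to_le hS₀S
  have D₀ := normalData_of_isNormalIn hnor
  have hTS₀ : T ≤ T ⊔ centralizerIn S T := le_sup_left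
  have keyA : ∀ (P : Subgroup Ω) (f : Ω → Ω), P ≤ T → Mor F₀ P f → Mor E P f := by
    intro P f hPT hf
    obtain ⟨a, f₀, ha, haT, hf₀, hfa⟩ := D₀.fr P f hPT hf
    have h1 : mkAut ha haT ∈ E.autGroup T := haut ▸ mkAut_mem ha haT
    have haE : Mor E T a :=
      ((mem_autGroup_iff le_rfl _).1 h1).congr (fun x hx => autFun_mkAut ha haT hx)
    exact (hf₀.comp haE (fun x hx => hf₀.mem hx)).congr (fun x hx => (hfa x hx).symm)
  refine ⟨D₀.sub, ?_, ?_⟩
  · have hall := disp_mem_all hS₀ hF₀ D₀.sc (fun P f hTP hf =>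
      disp_mem_of_le hS D hCE hTP (mor_of_subsystem hsub hf) (fun x hx => hf.mem hx) hf.le
        (keyA T f le_rfl (hf.restrict hTP)))
    refine (nc_hyperfocal_le_focal F₀ p).trans ?_
    unfold focalSubgroup
    rw [Subgroup.closure_le]
    rintro _ ⟨P, φ, x, hφ, rfl⟩
    have h := hall P (extFun P φ) (mor_extFun hφ) x x.2
    rwa [extFun_apply] at h
  · intro P hPT
    refine (Subgroup.map_subtype_le _).trans ?_
    intro α hα
    rw [mem_autGroup_iff hPT]
    exact keyA P _ hPT ((mem_autGroup_iff (hPT.trans hTS₀) α).1 hα)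

end Cfsg.Agent.H86
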